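import Mathlib
import Cfsg.Agent.Lib.Core.CoprimeSylow
import Cfsg.Agent.Lib.Core.MinNormal

/-! An element of order three with two dimensional commutator space on a module over the field
with three elements, normalising a four-group: the frame. -/

set_option autoImplicit false
set_option linter.unusedSectionVars false

namespace H3F

open Subgroup

variable {G : Type*} [Group G] {V : Type*} [AddCommGroup V] [Module (ZMod 3) V]
  {ρ : Representation (ZMod 3) G V} {b x y : G}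

theorem act_mul (g h : G) (v : V) : ρ (g * h) v = ρ g (ρ h v) := by simp

theorem act_inv (g : G) (v : V) : ρ g⁻¹ (ρ g v) = v := by rw [← act_mul]; simp

theorem act_inv' (g : G) (v : V) : ρ g (ρ g⁻¹ v) = v := by rw [← act_mul]; simp

theorem act_ne (g : G) {v : V} (h : v ≠ 0) : ρ g v ≠ 0 := fun e => h (by
  rw [← act_inv (ρ := ρ) g v, e, map_zero])

theorem three (v : V) : v + v + v = 0 := by
  have : (3 : ZMod 3) • v = 0 := by rw [show (3 : ZMod 3) = 0 from rfl, zero_smul]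
  rw [← this, show (3 : ZMod 3) = 1 + 1 + 1 from rfl, add_smul, add_smul, one_smul]

theorem eq_zero_of_neg {v : V} (h : -v = v) : v = 0 := by
  linear_combination (norm := abel1) three v + h

theorem act_comm {g h : G} (e : Commute g h) (v : V) : ρ g (ρ h v) = ρ h (ρ g v) := by
  rw [← act_mul, e.eq, act_mul]

/-- The hypotheses on the alternating group of degree four. -/
structure Hyp (ρ : Representation (ZMod 3) G V) (b x y : G) : Prop where
  inj : Function.Injective ρ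
  b3 : b ^ 3 = 1
  rk : ∀ u v w : V, ∃ α β γ : ZMod 3, ¬ (α = 0 ∧ β = 0 ∧ γ = 0) ∧
    α • (ρ b u - u) + β • (ρ b v - v) + γ • (ρ b w - w) = 0
  xx : x * x = 1
  x1 : x ≠ 1
  bx : b * x * b⁻¹ = y
  by' : b * y * b⁻¹ = x * y

namespace Hyp

variable (h : Hyp ρ b x y)
include h

theorem ext {g k : G} (e : ∀ v, ρ g v = ρ k v) : g = k := h.inj (LinearMap.ext e)

theorem eq_one {g : G} (e : ∀ v, ρ g v = v) : g = 1 := h.ext fun v => by simpa using e v

theorem yy : y * y = 1 := by rw [← h.bx, conj_mul, h.xx]; simp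

theorem xy2 : x * y * (x * y) = 1 := by rw [← h.by', conj_mul, h.yy]; simp

theorem comm : Commute x y := by
  have h1 := eq_inv_of_mul_eq_one_left h.xy2
  rwa [mul_inv_rev, inv_eq_of_mul_eq_one_right h.xx, inv_eq_of_mul_eq_one_right h.yy] at h1

theorem bxy : b * (x * y) * b⁻¹ = x := by
  rw [← conj_mul, h.bx, h.by', h.comm.eq, ← mul_assoc, h.yy, one_mul]

theorem y1 : y ≠ 1 := fun e => h.x1 (by simpa [e] using h.bx)

theorem xy1 : x * y ≠ 1 := fun e => h.y1 (by simpa [e] using h.by')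

theorem rot : Hyp ρ b y (x * y) :=
  ⟨h.inj, h.b3, h.rk, h.yy, h.y1, h.by', by rw [h.bxy, h.comm.eq, ← mul_assoc, h.yy, one_mul]⟩

theorem vxx (v : V) : ρ x (ρ x v) = v := by rw [← act_mul, h.xx]; simp
theorem vyy (v : V) : ρ y (ρ y v) = v := by rw [← act_mul, h.yy]; simp
theorem vyx (v : V) : ρ y (ρ x v) = ρ x (ρ y v) := (act_comm h.comm v).symm
theorem vbbb (v : V) : ρ b (ρ b (ρ b v)) = v := by
  rw [← act_mul, ← act_mul, ← pow_three', h.b3]; simp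
theorem vyb (v : V) : ρ y (ρ b v) = ρ b (ρ x v) := by rw [← h.bx, ← act_mul, ← act_mul]; simp
theorem vxb (v : V) : ρ x (ρ b v) = ρ b (ρ x (ρ y v)) := by
  rw [← act_mul, ← act_mul, ← act_mul]; nth_rw 1 [← h.bxy]; simp [mul_assoc]

theorem dec0 (v : V) : ∃ v0 v1 v2 v3 : V, (ρ x v0 = v0 ∧ ρ y v0 = v0) ∧ (ρ x v1 = v1 ∧ ρ y v1 = -v1) ∧
    (ρ x v2 = -v2 ∧ ρ y v2 = v2) ∧ (ρ x v3 = -v3 ∧ ρ y v3 = -v3) ∧ v = v0 + v1 + v2 + v3 := by
  refine ⟨v + ρ x v + ρ y v + ρ x (ρ y v), v + ρ x v - ρ y v - ρ x (ρ y v),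
    v - ρ x v + ρ y v - ρ x (ρ y v), v - ρ x v - ρ y v + ρ x (ρ y v), ⟨?_, ?_⟩, ⟨?_, ?_⟩, ⟨?_, ?_⟩,
    ⟨?_, ?_⟩, by linear_combination (norm := abel1) -three v⟩ <;>
  simp only [map_add, map_sub, h.vxx, h.vyx, h.vyy] <;> abel

omit h in
theorem indep {v0 v1 v2 v3 : V} (h0 : ρ x v0 = v0 ∧ ρ y v0 = v0) (h1 : ρ x v1 = v1 ∧ ρ y v1 = -v1)
    (h2 : ρ x v2 = -v2 ∧ ρ y v2 = v2) (h3 : ρ x v3 = -v3 ∧ ρ y v3 = -v3) (e : v0 + v1 + v2 + v3 = 0) :
    v0 = 0 ∧ v1 = 0 ∧ v2 = 0 ∧ v3 = 0 := by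
  have a := congrArg (ρ x) e
  have c := congrArg (ρ y) e
  have d := congrArg (ρ y) a
  simp only [map_add, map_neg, map_zero, h0, h1, h2, h3] at a c d
  exact ⟨by linear_combination (norm := abel1) e + a + c + d - three v0,
    by linear_combination (norm := abel1) e + a - c - d - three v1,
    by linear_combination (norm := abel1) e - a + c - d - three v2,
    by linear_combination (norm := abel1) e - a - c + d - three v3⟩

theorem up0 {v : V} (e : ρ x v = v ∧ ρ y v = v) : ρ x (ρ b v) = ρ b v ∧ ρ y (ρ b v) = ρ b v := by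
  simp [h.vxb, h.vyb, e]
theorem up1 {v : V} (e : ρ x v = v ∧ ρ y v = -v) : ρ x (ρ b v) = -ρ b v ∧ ρ y (ρ b v) = ρ b v := by
  simp [h.vxb, h.vyb, e]
theorem up2 {v : V} (e : ρ x v = -v ∧ ρ y v = v) : ρ x (ρ b v) = -ρ b v ∧ ρ y (ρ b v) = -ρ b v := by
  simp [h.vxb, h.vyb, e]
theorem up3 {v : V} (e : ρ x v = -v ∧ ρ y v = -v) : ρ x (ρ b v) = ρ b v ∧ ρ y (ρ b v) = -ρ b v := by
  simp [h.vxb, h.vyb, e]

end Hyp

/-- The frame of the four-group. -/
structure Fr (ρ : Representation (ZMod 3) G V) (b x y : G) (e : V) : Prop extends Hyp ρ b x y where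
  ne : e ≠ 0
  e1 : ρ x e = e ∧ ρ y e = -e
  l1 : ∀ v, ρ x v = v ∧ ρ y v = -v → ∃ a : ZMod 3, v = a • e
  l0 : ∀ v, ρ x v = v ∧ ρ y v = v → ρ b v = v

theorem Hyp.exists_fr (h : Hyp ρ b x y) : ∃ e, Fr ρ b x y e := by
  obtain ⟨e, h1, h2⟩ : ∃ e : V, e ≠ 0 ∧ ρ x e = e ∧ ρ y e = -e := by
    by_contra! hn
    have k : ∀ v, ρ x v = v ∧ ρ y v = -v → v = 0 := fun v e => by_contra fun e' => hn v e' e.1 e.2
    refine h.x1 (h.eq_one fun v => ?_)
    obtain ⟨v0, v1, v2, v3, a0, a1, a2, a3, rfl⟩ := h.dec0 v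
    obtain rfl : v2 = 0 := by rw [← h.vbbb v2, k _ (h.up3 (h.up2 a2)), map_zero]
    obtain rfl : v3 = 0 := by rw [← h.vbbb v3, k _ (h.up3 a3), map_zero, map_zero]
    simp [a0, a1]
  have h3 := h.up1 h2
  have h4 := h.up2 h3
  have z : ∀ {a : ZMod 3} {v : V}, v ≠ 0 → a • v = 0 → a = 0 := fun hv e =>
    (smul_eq_zero.1 e).resolve_right hv
  refine ⟨e, h, h1, h2, fun v hv => ?_, fun v hv => ?_⟩
  · obtain ⟨α, β, γ, a1, a2⟩ := h.rk e (ρ b e) v
    have h5 := h.up1 hv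
    obtain ⟨-, c1, -, c3⟩ := Hyp.indep (ρ := ρ) (x := x) (y := y) (v0 := 0) (v1 := -(α • e + γ • v))
      (v2 := (α - β) • ρ b e + γ • ρ b v) (v3 := β • ρ b (ρ b e)) (by simp)
      (by simp [h2, hv, add_comm]) (by simp [h3, h5, add_comm]) (by simp [h4])
      (by linear_combination (norm := module) a2)
    obtain rfl := z (act_ne b (act_ne b h1)) c3
    have c4 : γ ≠ 0 := by
      rintro rfl
      exact a1 ⟨z h1 (by simpa using c1), rfl, rfl⟩
    refine ⟨-(γ⁻¹ * α), ?_⟩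
    have : γ⁻¹ * γ = 1 := inv_mul_cancel₀ c4
    linear_combination (norm := skip) (-γ⁻¹) • c1
    match_scalars <;> simp [this]
  · obtain ⟨α, β, γ, a1, a2⟩ := h.rk e (ρ b e) v
    have h5 := h.up0 hv
    obtain ⟨c0, c1, -, c3⟩ := Hyp.indep (ρ := ρ) (x := x) (y := y) (v0 := γ • (ρ b v - v))
      (v1 := -(α • e)) (v2 := (α - β) • ρ b e) (v3 := β • ρ b (ρ b e)) (by simp [hv, h5])
      (by simp [h2]) (by simp [h3]) (by simp [h4]) (by linear_combination (norm := module) a2)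
    obtain rfl := z (act_ne b (act_ne b h1)) c3
    obtain rfl := z h1 (neg_eq_zero.1 c1)
    exact sub_eq_zero.1 ((smul_eq_zero.1 c0).resolve_left fun e => a1 ⟨rfl, rfl, e⟩)

namespace Fr

variable {e : V} (h : Fr ρ b x y e)
include h

theorem e2 : ρ x (ρ b e) = -ρ b e ∧ ρ y (ρ b e) = ρ b e := h.up1 h.e1
theorem e3 : ρ x (ρ b (ρ b e)) = -ρ b (ρ b e) ∧ ρ y (ρ b (ρ b e)) = -ρ b (ρ b e) := h.up2 h.e2

theorem l2 (v : V) (hv : ρ x v = -v ∧ ρ y v = v) : ∃ a : ZMod 3, v = a • ρ b e :=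
  (h.l1 _ (h.up3 (h.up2 hv))).imp fun a e => by rw [← h.vbbb v, e, map_smul]

theorem l3 (v : V) (hv : ρ x v = -v ∧ ρ y v = -v) : ∃ a : ZMod 3, v = a • ρ b (ρ b e) :=
  (h.l1 _ (h.up3 hv)).imp fun a e => by rw [← h.vbbb v, e, map_smul, map_smul]

theorem dec (v : V) : ∃ (v0 : V) (a1 a2 a3 : ZMod 3), (ρ x v0 = v0 ∧ ρ y v0 = v0) ∧
    v = v0 + a1 • e + a2 • ρ b e + a3 • ρ b (ρ b e) := by
  obtain ⟨v0, v1, v2, v3, a0, a1, a2, a3, rfl⟩ := h.dec0 v
  obtain ⟨c1, rfl⟩ := h.l1 _ a1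
  obtain ⟨c2, rfl⟩ := h.l2 _ a2
  obtain ⟨c3, rfl⟩ := h.l3 _ a3
  exact ⟨v0, c1, c2, c3, a0, rfl⟩

/-- The commutator space of `b`. -/
theorem sub_mem {W : Submodule (ZMod 3) V} (h1 : ρ b e - e ∈ W) (h2 : ρ b (ρ b e) - ρ b e ∈ W) (v : V) :
    ρ b v - v ∈ W := by
  obtain ⟨v0, a1, a2, a3, h0, rfl⟩ := h.dec v
  convert W.add_mem (W.smul_mem (a1 - a3) h1) (W.smul_mem (a2 - a3) h2) using 1
  simp only [map_add, map_smul, h.l0 _ h0, h.vbbb]
  module

omit h in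
theorem sign {g : G} {v : V} (hv : v ≠ 0) (e : ∃ a : ZMod 3, ρ g v = a • v) :
    ρ g v = v ∨ ρ g v = -v := by
  obtain ⟨a, e⟩ := e
  have : ∀ a : ZMod 3, a = 0 ∨ a = 1 ∨ a = -1 := by decide
  rcases this a with rfl | rfl | rfl
  · exact (act_ne g hv (by simpa using e)).elim
  · exact .inl (by simpa using e)
  · exact .inr (by simpa using e)

theorem signs {g : G} (hx : Commute g x) (hy : Commute g y) : (ρ g e = e ∨ ρ g e = -e) ∧
    (ρ g (ρ b e) = ρ b e ∨ ρ g (ρ b e) = -ρ b e) ∧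
    (ρ g (ρ b (ρ b e)) = ρ b (ρ b e) ∨ ρ g (ρ b (ρ b e)) = -ρ b (ρ b e)) :=
  ⟨sign h.ne (h.l1 _ (by simp [← act_comm hx, ← act_comm hy, h.e1])),
    sign (act_ne b h.ne) (h.l2 _ (by simp [← act_comm hx, ← act_comm hy, h.e2])),
    sign (act_ne b (act_ne b h.ne)) (h.l3 _ (by simp [← act_comm hx, ← act_comm hy, h.e3]))⟩

omit h in
theorem fix_of_odd {g : G} {n : ℕ} (hn : Odd n) (hg : g ^ n = 1) {v : V}
    (e : ρ g v = v ∨ ρ g v = -v) : ρ g v = v := by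
  refine e.elim id fun e => ?_
  obtain ⟨k, rfl⟩ := hn
  have : ∀ k, ρ (g ^ (2 * k + 1)) v = -v := fun k => by
    induction k with
    | zero => simpa using e
    | succ k ih => rw [show 2 * (k + 1) + 1 = 2 * k + 1 + 1 + 1 by ring, pow_succ', pow_succ', act_mul,
        act_mul, ih, map_neg, e, neg_neg, e]
  have h1 := this k
  rw [hg, map_one, Module.End.one_apply] at h1
  rw [eq_zero_of_neg h1.symm, map_zero]

/-- Elements of odd order which centralise the four-group centralise `b`. -/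
theorem commute_of_odd {g : G} {n : ℕ} (hn : Odd n) (hg : g ^ n = 1) (hx : Commute g x)
    (hy : Commute g y) : Commute g b := by
  obtain ⟨s1, s2, s3⟩ := h.signs hx hy
  refine h.ext fun v => ?_
  obtain ⟨v0, a1, a2, a3, h0, rfl⟩ := h.dec v
  have := h.l0 (ρ g v0) (by simp [← act_comm hx, ← act_comm hy, h0])
  simp [h.l0 _ h0, this, h.vbbb, fix_of_odd hn hg s1, fix_of_odd hn hg s2, fix_of_odd hn hg s3]

end Fr

end H3F
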