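import Cfsg.Agent.Lib.H3F.A

/-! Counting fixed vectors, reduction to an irreducible module. -/

set_option autoImplicit false
set_option linter.unusedSectionVars false

namespace H3F

open Subgroup Module
open scoped commutatorElement

variable {G : Type*} [Group G] {V : Type*} [AddCommGroup V] [Module (ZMod 3) V] [Finite V]
  {ρ : Representation (ZMod 3) G V} {b x y : G}

theorem dvd_of_modEq {p q n j : ℕ} (hp : p.Prime) (hq : q.Prime) (h : p ≠ q) (hj : j ≤ n)
    (e : q ^ n ≡ q ^ j [MOD p]) : p ∣ q ^ (n - j) - 1 := by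
  obtain ⟨k, rfl⟩ := Nat.exists_eq_add_of_le hj
  rw [Nat.add_sub_cancel_left]
  have h1 := (Nat.modEq_iff_dvd' (Nat.pow_le_pow_right hq.pos hj)).1 e.symm
  rw [pow_add, ← Nat.mul_sub_one] at h1
  exact (((Nat.coprime_primes hp hq).2 h).pow_right j).dvd_of_dvd_mul_left h1

theorem card_sub (W : Submodule (ZMod 3) V) : Nat.card W = 3 ^ finrank (ZMod 3) W := by
  have := Fintype.ofFinite W
  rw [Nat.card_eq_fintype_card, Module.card_eq_pow_finrank (K := ZMod 3), ZMod.card]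

theorem cnt {g : G} {r : ℕ} (hr : r.Prime) (h3 : r ≠ 3) (hg : g ^ r = 1) {W : Submodule (ZMod 3) V}
    (hW : ∀ v ∈ W, ρ g v ∈ W) :
    r ∣ 3 ^ (finrank (ZMod 3) W - finrank (ZMod 3) (W ⊓ LinearMap.ker (ρ g - 1) : Submodule _ V)) - 1 := by
  classical
  have := Fact.mk hr
  have := Fintype.ofFinite W
  let f : Function.End W := fun v => ⟨ρ g v, hW v v.2⟩
  have hf : ∀ n (v : W), ((f ^ n) v : V) = ρ (g ^ n) v := fun n => by
    induction n with
    | zero => exact fun v => by rw [pow_zero g, map_one]; rfl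
    | succ n ih => exact fun v => by rw [pow_succ, pow_succ, act_mul]; exact ih (f v)
  have h1 := Equiv.Perm.card_fixedPoints_modEq (f := f) (p := r) (n := 1)
    (funext fun v => Subtype.ext (by rw [pow_one, hf, hg, map_one]; rfl))
  refine dvd_of_modEq hr Nat.prime_three h3 (Submodule.finrank_mono inf_le_left) ?_
  rw [← card_sub, ← card_sub, Nat.card_eq_fintype_card]
  convert h1
  rw [← Nat.card_eq_fintype_card]
  exact Nat.card_congr ⟨fun v => ⟨⟨v, v.2.1⟩, Subtype.ext (sub_eq_zero.1 v.2.2)⟩,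
    fun v => ⟨v.1, v.1.2, sub_eq_zero.2 (congrArg Subtype.val v.2)⟩, fun _ => rfl, fun _ => rfl⟩

theorem fix_or {g : G} {r : ℕ} (hr : r.Prime) (h3 : r ≠ 3) (hg : g ^ r = 1) {W : Submodule (ZMod 3) V}
    (hW : ∀ v ∈ W, ρ g v ∈ W) : (∀ v ∈ W, ρ g v = v) ∨ ∃ k, 1 ≤ k ∧ r ∣ 3 ^ k - 1 ∧
      finrank (ZMod 3) W = k + finrank (ZMod 3) (W ⊓ LinearMap.ker (ρ g - 1) : Submodule _ V) := by
  have h1 : finrank (ZMod 3) (W ⊓ LinearMap.ker (ρ g - 1) : Submodule _ V) ≤ finrank (ZMod 3) W :=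
    Submodule.finrank_mono inf_le_left
  rcases h1.eq_or_lt with e | e
  · have := Submodule.eq_of_le_of_finrank_eq inf_le_left e
    exact .inl fun v hv => sub_eq_zero.1 (this.ge hv).2
  · exact .inr ⟨_, by omega, cnt hr h3 hg hW, by omega⟩

theorem finrank_span_list (l : List V) :
    finrank (ZMod 3) (Submodule.span (ZMod 3) {v | v ∈ l}) ≤ l.length := by
  classical
  have := finrank_span_finset_le_card (R := ZMod 3) l.toFinset
  rw [List.coe_toFinset] at this
  exact this.trans l.toFinset_card_le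

theorem fix_two {g : G} {r : ℕ} (hr : r.Prime) (h5 : 5 ≤ r) (hg : g ^ r = 1) {u w : V}
    (hW : ∀ v ∈ Submodule.span (ZMod 3) {u, w}, ρ g v ∈ Submodule.span (ZMod 3) {u, w}) :
    ∀ v ∈ Submodule.span (ZMod 3) {u, w}, ρ g v = v := by
  refine (fix_or hr (by omega) hg hW).resolve_right ?_
  rintro ⟨k, h1, h2, h3⟩
  have := finrank_span_list [u, w]
  rw [show {v | v ∈ [u, w]} = ({u, w} : Set V) by ext; simp, h3] at this
  obtain rfl | rfl : k = 1 ∨ k = 2 := by simp at this; omega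
  · have := Nat.le_of_dvd (by norm_num) h2; omega
  · have := (Nat.prime_dvd_prime_iff_eq hr Nat.prime_two).1 (hr.dvd_of_dvd_pow (n := 3) h2); omega

/-- The elements whose commutator space lies in `W`. -/
def cm (ρ : Representation (ZMod 3) G V) (W : Submodule (ZMod 3) V) : Subgroup G where
  carrier := {g | ∀ v, ρ g v - v ∈ W}
  one_mem' := fun v => by simp
  mul_mem' := fun {g h} hg hh v => by simpa using W.add_mem (hg (ρ h v)) (hh v)
  inv_mem' := fun {g} hg v => by simpa [act_inv'] using W.neg_mem (hg (ρ g⁻¹ v))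

/-- The elements fixing `W` pointwise. -/
def fx (ρ : Representation (ZMod 3) G V) (W : Submodule (ZMod 3) V) : Subgroup G where
  carrier := {g | ∀ v ∈ W, ρ g v = v}
  one_mem' := fun v _ => by simp
  mul_mem' := fun {g h} hg hh v hv => by rw [act_mul, hh v hv, hg v hv]
  inv_mem' := fun {g} hg v hv => by nth_rw 1 [← hg v hv, act_inv]

theorem cube {g : G} {v : V} (h : ρ g (ρ g v - v) = ρ g v - v) : ρ (g ^ 3) v = v := by
  have h1 : ρ g (ρ g v) = ρ g v + (ρ g v - v) := by rw [← h, map_sub]; abel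
  rw [pow_three, act_mul, act_mul, h1, map_add, h1, h]
  linear_combination (norm := abel1) three (ρ g v - v)

theorem eq_one_of_pow {g : G} {m n : ℕ} (h : m.Coprime n) (h1 : g ^ m = 1) (h2 : g ^ n = 1) : g = 1 := by
  rw [← pow_one g, ← h.gcd_eq_one, pow_gcd_eq_one.2 ⟨h1, h2⟩]

/-- An element of prime order at least five centralised by `x` and inverted by `y` is trivial. -/
theorem Fr.eq_one_of_inv {e : V} (h : Fr ρ b x y e) {a : G} {r : ℕ} (hr : r.Prime) (h5 : 5 ≤ r)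
    (ha : a ^ r = 1) (hx : Commute a x) (hy : y * a * y⁻¹ = a⁻¹) : a = 1 := by
  have k1 : ∀ v, ρ x v = -v → v ∈ Submodule.span (ZMod 3) {ρ b e, ρ b (ρ b e)} := fun v hv => by
    obtain ⟨v0, a1, a2, a3, h0, rfl⟩ := h.dec v
    refine Submodule.mem_span_pair.2 ⟨a2, a3, ?_⟩
    simp only [map_add, map_smul, h0, h.e1, h.e2, h.e3] at hv
    linear_combination (norm := module) hv - three (v0 + a1 • e)
  have k2 : ∀ v, ρ x v = -v → ρ a v = v := fun v hv => fix_two hr h5 ha (fun w hw => k1 _ (by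
    obtain ⟨c, d, rfl⟩ := Submodule.mem_span_pair.1 hw
    simp [← act_comm hx, h.e2, h.e3, add_comm])) v (k1 v hv)
  have k3 : ∀ v, ρ x v = v → ρ y v - v ∈ Submodule.span (ZMod 3) {e} := fun v hv => by
    obtain ⟨c, hc⟩ := h.l1 (ρ y v - v) (by simp [← h.vyx, hv, h.vyy])
    exact Submodule.mem_span_singleton.2 ⟨c, hc.symm⟩
  have k4 : ∀ v, ρ x v = v → ρ (a ^ 2) v - v ∈ Submodule.span (ZMod 3) {e, ρ a e} := fun v hv => by
    have e1 : a ^ 2 = a * y * a⁻¹ * y := by
      rw [← hy, mul_assoc a y, ← mul_assoc y, ← mul_assoc y, h.yy]; simp [sq, mul_assoc]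
    obtain ⟨c, hc⟩ := Submodule.mem_span_singleton.1 (k3 v hv)
    obtain ⟨d, hd⟩ := Submodule.mem_span_singleton.1 (k3 (ρ a⁻¹ (ρ y v))
      (by rw [← act_comm hx.inv_left, ← h.vyx, hv]))
    refine Submodule.mem_span_pair.2 ⟨c, d, ?_⟩
    rw [← map_smul, hc, hd, e1, map_sub, act_inv', act_mul, act_mul, act_mul]
    abel
  have k5 : ∀ v ∈ Submodule.span (ZMod 3) {e, ρ a e}, ρ x v = v := fun w hw => by
    obtain ⟨c, d, rfl⟩ := Submodule.mem_span_pair.1 hw
    simp [← act_comm hx, h.e1]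
  have k6 := fix_two (ρ := ρ) (g := a ^ 2) hr h5 (by rw [← pow_mul, mul_comm, pow_mul, ha, one_pow])
    fun v hv => by simpa using Submodule.add_mem _ (k4 v (k5 v hv)) hv
  refine eq_one_of_pow (m := 2 * 3) (n := r) ?_ (h.eq_one fun v => ?_) ha
  · exact ((Nat.coprime_primes Nat.prime_two hr).2 (by omega)).mul_left
      ((Nat.coprime_primes Nat.prime_three hr).2 (by omega))
  · obtain ⟨v0, v1, v2, v3, a0, a1, a2, a3, rfl⟩ := h.dec0 v
    have k7 : ∀ n v, ρ x v = -v → ρ (a ^ n) v = v := fun n v hv => by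
      induction n with
      | zero => simp
      | succ n ih => rw [pow_succ, act_mul, k2 v hv, ih]
    rw [map_add, map_add, map_add, k7 _ _ a2.1, k7 _ _ a3.1, pow_mul, cube (k6 _ (k4 _ a0.1)),
      cube (k6 _ (k4 _ a1.1))]

/-- The irreducible situation. -/
structure Irr (ρ : Representation (ZMod 3) G V) (b x y : G) (R : Subgroup G) : Prop
    extends Hyp ρ b x y where
  norm : R.Normal
  top : R ⊔ zpowers b = ⊤
  cop : (Nat.card R).Coprime 3
  cm : R ≤ ⁅R, zpowers b⁆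
  mem : x ∈ R
  irr : ∀ N : Submodule (ZMod 3) V, (∀ g, ∀ v ∈ N, ρ g v ∈ N) → N = ⊥ ∨ N = ⊤

omit [Finite V] in
theorem comm_le {R K : Subgroup G} (hb : b ∈ K) (h : ∀ r ∈ R, ∀ k ∈ K, r * k * r⁻¹ ∈ K) :
    ⁅R, zpowers b⁆ ≤ K := commutator_le.2 fun r hr k hk =>
  mul_mem (h r hr k (zpowers_le.2 hb hk)) (inv_mem (zpowers_le.2 hb hk))

theorem Hyp.exists_irr [Finite G] (h : Hyp ρ b x y) {R : Subgroup G}
    (hb : zpowers b ≤ normalizer (R : Set G)) (cop : (Nat.card R).Coprime 3) (hc : R ≤ ⁅R, zpowers b⁆)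
    (hx : x ∈ R) : ∃ F₀ F₁ : Submodule (ZMod 3) V, F₀ ⊓ F₁ = ⊥ ∧ F₀ ⊔ F₁ = ⊤ ∧
      (∀ r ∈ R, ∀ v ∈ F₁, ρ r v = v) ∧ (∀ r ∈ R ⊔ zpowers b, ∀ v ∈ F₀, ρ r v ∈ F₀) ∧
      (∀ r ∈ R ⊔ zpowers b, (∀ v ∈ F₀, ρ r v = v) → r = 1) ∧
      (∀ N : Submodule (ZMod 3) V, N ≤ F₀ → (∀ r ∈ R ⊔ zpowers b, ∀ v ∈ N, ρ r v ∈ N) → N = ⊥ ∨ N = F₀) ∧
      ∃ (ρ' : Representation (ZMod 3) (R ⊔ zpowers b : Subgroup G) F₀) (b' x' y' : (R ⊔ zpowers b : Subgroup G)),
        Irr ρ' b' x' y' (R.subgroupOf _) := by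
  obtain ⟨e, h⟩ := h.exists_fr
  have hy : y ∈ R := h.bx ▸ H2.conj_mem_of_le_normalizer hb (mem_zpowers b) hx
  have := Fintype.ofFinite R
  have c3 : (Fintype.card R : ZMod 3) ≠ 0 := fun e => by
    rw [ZMod.natCast_eq_zero_iff, ← Nat.card_eq_fintype_card] at e
    exact absurd (Nat.Coprime.eq_one_of_dvd cop.symm e) (by norm_num)
  have := invertibleOfNonzero c3
  let σ : Representation (ZMod 3) R V := ρ.comp R.subtype
  let F₀ : Submodule (ZMod 3) V := Submodule.span (ZMod 3) {w | ∃ r ∈ R, ∃ v, w = ρ r v - v}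
  have p := σ.isProj_averageMap
  have k0 : F₀ = LinearMap.ker σ.averageMap := by
    refine le_antisymm (Submodule.span_le.2 ?_) fun v hv => ?_
    · rintro _ ⟨r, hr, v, rfl⟩
      have : σ.averageMap (σ ⟨r, hr⟩ v) = σ.averageMap v := by
        rw [Representation.averageMap, ← Representation.asAlgebraHom_single_one, ← Module.End.mul_apply,
          ← map_mul σ.asAlgebraHom, GroupAlgebra.mul_average_right]
      exact (map_sub _ _ _).trans (sub_eq_zero.2 this)
    · have h1 : σ.averageMap v = ⅟(Fintype.card R : ZMod 3) • ∑ r : R, ρ r v := by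
        simp [Representation.averageMap, GroupAlgebra.average, map_sum, σ]
      have h2 : v = -(⅟(Fintype.card R : ZMod 3) • ∑ r : R, (ρ r v - v)) := by
        rw [Finset.sum_sub_distrib, smul_sub, ← h1, hv]
        simp [← Nat.cast_smul_eq_nsmul (ZMod 3), smul_smul, c3]
      rw [h2]
      exact F₀.neg_mem (F₀.smul_mem _ (F₀.sum_mem fun r _ => Submodule.subset_span ⟨r, r.2, v, rfl⟩))
  have k1 : ∀ r ∈ R ⊔ zpowers b, ∀ v ∈ F₀, ρ r v ∈ F₀ := fun g hg v hv => by
    have hn : g ∈ normalizer (R : Set G) := sup_le le_normalizer hb hg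
    refine Submodule.span_le (p := F₀.comap (ρ g)) |>.2 ?_ hv
    rintro _ ⟨r, hr, v, rfl⟩
    exact Submodule.subset_span ⟨g * r * g⁻¹, (mem_normalizer_iff.1 hn r).1 hr, ρ g v, by simp [act_inv]⟩
  have k2 : ∀ r ∈ R, ∀ v ∈ σ.invariants, ρ r v = v := fun r hr v hv => hv ⟨r, hr⟩
  have c1 : F₀ ⊓ σ.invariants = ⊥ := by rw [k0, inf_comm]; exact p.isCompl.inf_eq_bot
  have c2 : F₀ ⊔ σ.invariants = ⊤ := by rw [k0, sup_comm]; exact p.isCompl.sup_eq_top
  have k3 : ∀ r ∈ R ⊔ zpowers b, (∀ v ∈ F₀, ρ r v = v) → r = 1 := fun r hr hf => h.eq_one fun v => by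
    obtain ⟨v0, h0, v1, h1, rfl⟩ := Submodule.mem_sup.1 (c2.ge (Submodule.mem_top (x := v)))
    have : R ⊔ zpowers b ≤ fx ρ σ.invariants := sup_le k2 (zpowers_le.2 fun v hv =>
      h.l0 v ⟨k2 x hx v hv, k2 y hy v hv⟩)
    rw [map_add, hf v0 h0, this hr v1 h1]
  have k4 : ∀ N : Submodule (ZMod 3) V, N ≤ F₀ → (∀ r ∈ R ⊔ zpowers b, ∀ v ∈ N, ρ r v ∈ N) →
      N = ⊥ ∨ N = F₀ := fun N hN hi => by
    have iR := fun r (hr : r ∈ R) => hi r (mem_sup_left hr)
    have ib := hi b (mem_sup_right (mem_zpowers b))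
    by_cases he : e ∈ N
    · refine .inr (le_antisymm hN (Submodule.span_le.2 ?_))
      rintro _ ⟨r, hr, v, rfl⟩
      refine comm_le (K := cm ρ N) (h.sub_mem (N.sub_mem (ib _ he) he)
        (N.sub_mem (ib _ (ib _ he)) (ib _ he))) (fun r hr k hk v => ?_) (hc hr) v
      simpa [act_inv'] using iR r hr _ (hk (ρ r⁻¹ v))
    · have z : ∀ v ∈ N, ρ x v = v ∧ ρ y v = -v → v = 0 := fun v hv h1 => by
        obtain ⟨a, rfl⟩ := h.l1 v h1
        by_contra h2
        exact he ((N.smul_mem_iff (left_ne_zero_of_smul h2)).1 hv)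
      have : b ∈ fx ρ N := fun v hv => by
        have ix := iR x hx v hv
        have iy := iR y hy v hv
        have iz := iR x hx _ iy
        have z1 := z (v + ρ x v - ρ y v - ρ x (ρ y v)) (N.sub_mem (N.sub_mem (N.add_mem hv ix) iy) iz)
          (by simp only [map_add, map_sub, h.vxx, h.vyx, h.vyy]; constructor <;> abel)
        have z2 := z _ (ib _ (ib _ (N.sub_mem (N.add_mem (N.sub_mem hv ix) iy) iz)))
          (h.up3 (h.up2 (by simp only [map_add, map_sub, h.vxx, h.vyx, h.vyy]; constructor <;> abel)))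
        have z3 := z _ (ib _ (N.add_mem (N.sub_mem (N.sub_mem hv ix) iy) iz))
          (h.up3 (by simp only [map_add, map_sub, h.vxx, h.vyx, h.vyy]; constructor <;> abel))
        replace z2 := not_not.1 (mt (fun e => act_ne b (act_ne b e)) (not_not.2 z2))
        replace z3 := not_not.1 (mt (act_ne b) (not_not.2 z3))
        exact h.l0 v ⟨by linear_combination (norm := abel1) z2 + z3 + three (ρ x v - v),
          by linear_combination (norm := abel1) z1 + z3 + three (ρ y v - v)⟩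
      refine .inl (eq_bot_iff.2 fun v hv => c1.le ⟨hN hv, fun r => ?_⟩)
      refine comm_le (K := fx ρ N) this (fun r hr k hk v hv => ?_) (hc r.2) v hv
      rw [act_mul, act_mul, hk _ (iR _ (inv_mem hr) v hv), act_inv']
  let ρ' : Representation (ZMod 3) (R ⊔ zpowers b : Subgroup G) F₀ :=
    Representation.subrepresentation (ρ.comp (R ⊔ zpowers b).subtype) F₀ fun g v hv => k1 g g.2 v hv
  have hρ : ∀ g v, (ρ' g v : V) = ρ g v := fun _ _ => rfl
  let b' : (R ⊔ zpowers b : Subgroup G) := ⟨b, mem_sup_right (mem_zpowers b)⟩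
  have zb : zpowers b' = (zpowers b).subgroupOf _ := by
    ext g; simp [mem_zpowers_iff, mem_subgroupOf, Subtype.ext_iff, b']
  refine ⟨F₀, σ.invariants, c1, c2, k2, k1, k3, k4, ρ', b', ⟨x, mem_sup_left hx⟩, ⟨y, mem_sup_left hy⟩,
    ⟨(injective_iff_map_eq_one _).2 fun g hg => Subtype.ext (k3 g g.2 fun v hv => ?_), Subtype.ext h.b3,
      fun u v w => ?_, Subtype.ext h.xx, fun e => h.x1 (congrArg Subtype.val e), Subtype.ext h.bx,
      Subtype.ext h.by'⟩, H2.normal_subgroupOf_sup_left hb, ?_, ?_, ?_, hx, fun N hN => ?_⟩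
  · rw [← hρ g ⟨v, hv⟩, hg]; rfl
  · obtain ⟨α, β, γ, a1, a2⟩ := h.rk u v w
    exact ⟨α, β, γ, a1, Subtype.ext a2⟩
  · rw [zb, ← subgroupOf_sup le_sup_left le_sup_right, subgroupOf_self]
  · rwa [H2.card_subgroupOf_of_le le_sup_left]
  · rw [zb, ← map_le_map_iff_of_injective (subtype_injective _), map_commutator,
      map_subgroupOf_eq_of_le le_sup_left, map_subgroupOf_eq_of_le le_sup_right]
    exact hc
  · refine (k4 (N.map F₀.subtype) (Submodule.map_subtype_le _ _) ?_).imp (fun e => ?_) fun e => ?_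
    · rintro r hr _ ⟨v, hv, rfl⟩
      exact ⟨_, hN ⟨r, hr⟩ v hv, rfl⟩
    · exact Submodule.map_injective_of_injective F₀.injective_subtype (e.trans (Submodule.map_bot _).symm)
    · exact Submodule.map_injective_of_injective F₀.injective_subtype (e.trans (Submodule.map_subtype_top _).symm)

end H3F
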