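import Cfsg.Agent.Lib.H3F.B
import Cfsg.Agent.Lib.LocEven.PElem

/-! The irreducible situation: the centre, and a four-group which is central modulo the centre. -/

set_option autoImplicit false
set_option linter.unusedSectionVars false

namespace H3F

open Subgroup Module
open scoped commutatorElement

variable {G : Type*} [Group G] [Finite G] {V : Type*} [AddCommGroup V] [Module (ZMod 3) V] [Finite V]
  {ρ : Representation (ZMod 3) G V} {b x y : G} {R : Subgroup G}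

/-- The projection modulo the centre. -/
abbrev π (G : Type*) [Group G] : G →* G ⧸ center G := QuotientGroup.mk' _

omit [Finite G] in
theorem π_eq {s t : G} (h : π G s = π G t) : ∃ c ∈ center G, s = c * t :=
  ⟨s * t⁻¹, (QuotientGroup.eq_one_iff _).1 (show π G _ = 1 by rw [map_mul, h, map_inv, mul_inv_cancel]),
    by simp⟩

omit [Finite G] in
theorem π_one {s : G} : π G s = 1 ↔ s ∈ center G := QuotientGroup.eq_one_iff _

omit [Finite G] in
theorem cen {c : G} (hc : c ∈ center G) (g : G) : Commute c g := (mem_center_iff.1 hc g).symm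

omit [Finite G] in
theorem comm_of_π {s t k : G} (h : π G s = π G t) (e : Commute k t) : Commute k s := by
  obtain ⟨c, hc, rfl⟩ := π_eq h
  exact (cen hc k).symm.mul_right e

omit [Finite G] in
theorem comm_conj {g k t : G} (e : Commute k (g⁻¹ * t * g)) : Commute (g * k * g⁻¹) t := by
  simpa [mul_assoc] using e.map (MulAut.conj g)

/-- Central in `R` modulo the centre. -/
def Cz (R : Subgroup G) (u : G) : Prop := ∀ r ∈ R, Commute (π G r) (π G u)

theorem Cz.conj {u : G} (h : Cz R u) [hR : R.Normal] (g : G) : Cz R (g * u * g⁻¹) := fun r hr => by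
  simpa [mul_assoc] using (h _ (hR.conj_mem' r hr g)).map (MulAut.conj (π G g))

theorem Cz.π_conj {u r : G} (h : Cz R u) (hr : r ∈ R) : π G (r * u * r⁻¹) = π G u := by
  rw [map_mul, map_mul, (h r hr).eq, map_inv, mul_inv_cancel_right]

theorem Hyp.center_of_neg (h : Hyp ρ b x y) {c : G} (e : ∀ v, ρ c v = -v) : c ∈ center G :=
  mem_center_iff.2 fun g => h.ext fun v => by simp [e]

theorem Hyp.b3' (h : Hyp ρ b x y) (u : G) : b * (b * (b * u * b⁻¹) * b⁻¹) * b⁻¹ = u := by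
  rw [show b * (b * (b * u * b⁻¹) * b⁻¹) * b⁻¹ = b ^ 3 * u * (b ^ 3)⁻¹ by simp [pow_three, mul_assoc],
    h.b3]; simp

namespace Irr

variable (h : Irr ρ b x y R)
include h

theorem memy : y ∈ R := h.bx ▸ h.norm.conj_mem x h.mem b

theorem eq_top {K : Subgroup G} (hb : b ∈ K) (hR : ∀ r ∈ R, ∀ k ∈ K, r * k * r⁻¹ ∈ K) : K = ⊤ :=
  eq_top_iff.2 (h.top.ge.trans (sup_le (h.cm.trans (comm_le hb hR)) (zpowers_le.2 hb)))

theorem inv_all {N : Submodule (ZMod 3) V} (hR : ∀ r ∈ R, ∀ v ∈ N, ρ r v ∈ N) (hb : ∀ v ∈ N, ρ b v ∈ N)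
    (g : G) : ∀ v ∈ N, ρ g v ∈ N := by
  have := h.norm
  obtain ⟨r, hr, k, hk, rfl⟩ := (H2.mem_sup_iff_of_le_normalizer le_normalizer_of_normal).1
    (h.top.ge (mem_top g))
  obtain ⟨n, rfl⟩ := mem_powers_iff_mem_zpowers.2 hk
  intro v hv
  rw [act_mul]
  refine hR r hr _ ?_
  induction n with
  | zero => simpa using hv
  | succ n ih => simpa only [pow_succ', act_mul] using hb _ (ih (pow_mem (mem_zpowers b) n))

theorem central {c : G} (hc : c ∈ center G) : c = 1 ∨ ∀ v, ρ c v = -v := by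
  obtain ⟨e, he⟩ := h.exists_fr
  have k : ∀ a : ZMod 3, ρ c e = a • e → ∀ v, ρ c v = a • v := fun a ha v => by
    rcases h.irr (LinearMap.ker (ρ c - a • 1)) fun g v hv => by
      simp only [LinearMap.mem_ker, LinearMap.sub_apply, LinearMap.smul_apply, Module.End.one_apply,
        sub_eq_zero] at hv ⊢
      rw [act_comm (cen hc g), hv, map_smul] with e | e
    · exact (he.ne (e.le (by simp [ha]))).elim
    · simpa [sub_eq_zero] using e.ge (Submodule.mem_top (x := v))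
  exact (he.signs (cen hc x) (cen hc y)).1.imp (fun e => h.eq_one (by simpa using k 1 (by simpa using e)))
    fun e => by simpa using k (-1) (by simpa using e)

theorem cen_sq {c : G} (hc : c ∈ center G) : c * c = 1 := by
  rcases h.central hc with rfl | e
  · simp
  · exact h.eq_one fun v => by simp [e]

theorem cen_eq {c d : G} (hc : c ∈ center G) (hd : d ∈ center G) (h1 : c ≠ 1) (h2 : d ≠ 1) : c = d :=
  h.ext fun v => by rw [(h.central hc).resolve_left h1, (h.central hd).resolve_left h2]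

theorem conj_or {u r z : G} (hu : Cz R u) (hr : r ∈ R) (hz : z ∈ center G) (h1 : z ≠ 1) :
    r * u * r⁻¹ = u ∨ r * u * r⁻¹ = z * u := by
  obtain ⟨c, hc, e⟩ := π_eq (hu.π_conj hr)
  by_cases h2 : c = 1
  · exact .inl (by simpa [h2] using e)
  · exact .inr (h.cen_eq hc hz h2 h1 ▸ e)

theorem x_not_mem : x ∉ center G := fun e => h.y1 (by
  have h1 : y = x := by rw [← h.bx, ← (cen e b).eq]; simp
  have := h.by'
  rwa [h1, ← (cen e b).eq, mul_inv_cancel_right, h.xx, ← h1] at this)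

theorem center_of {u : G} (hu : Cz R u) (e : π G (b * u * b⁻¹) = π G u) : u ∈ center G := by
  obtain ⟨c, hc, e⟩ := π_eq e
  have h1 : ∀ g, b * (c * g) * b⁻¹ = c * (b * g * b⁻¹) := fun g => by
    rw [← mul_assoc b, ← (cen hc b).eq]; simp [mul_assoc]
  have h2 := h.b3' u
  rw [e, h1, e, ← mul_assoc c, h.cen_sq hc, one_mul, e, mul_eq_right] at h2
  rw [h2, one_mul, mul_inv_eq_iff_eq_mul] at e
  have := h.eq_top (K := centralizer {u}) (mem_centralizer_singleton_iff.2 e) fun r hr k hk =>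
    mem_centralizer_singleton_iff.2 (comm_conj (comm_of_π (by simpa using hu.π_conj (inv_mem hr))
      (mem_centralizer_singleton_iff.1 hk)))
  exact mem_center_iff.2 fun g => mem_centralizer_singleton_iff.1 (this.ge (mem_top g))

theorem exists_u (hR : IsPGroup 2 R) {K : Subgroup G} [hK : K.Normal] (hle : K ≤ R)
    (hn : ¬ K ≤ center G) : ∃ u ∈ K, u ∉ center G ∧ Cz R u ∧ u * u ∈ center G ∧
      u * (b * u * b⁻¹) * (b * (b * u * b⁻¹) * b⁻¹) ∈ center G := by
  have := h.norm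
  have := hK.map (π G) (QuotientGroup.mk'_surjective _)
  obtain ⟨_, ⟨u, h1, rfl⟩, h2, h3, h4⟩ := H68.exists_fixed_of_normalized (p := 2) (hR.map (π G))
    ((hR.to_le hle).map (π G)) le_normalizer_of_normal fun e => hn (by
      rwa [Subgroup.map_eq_bot_iff, QuotientGroup.ker_mk'] at e)
  have hu : Cz R u := fun r hr => h4 _ ⟨r, hr, rfl⟩
  have s : ∀ g, π G (g * u * g⁻¹) * π G (g * u * g⁻¹) = 1 := fun g => by
    rw [← map_mul, conj_mul, map_mul, map_mul, map_mul, ← sq, h3]; simp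
  rw [sq] at h3
  refine ⟨u * (b * u * b⁻¹), mul_mem h1 (hK.conj_mem u h1 b), fun e => h2 (π_one.2 (h.center_of hu ?_)),
    fun r hr => ?_, π_one.1 ?_, π_one.1 ?_⟩
  · rw [← π_one, map_mul] at e
    exact mul_left_cancel (e.trans h3.symm)
  · rw [map_mul]; exact (hu r hr).mul_right (hu.conj b r hr)
  · rw [map_mul, map_mul (π G) u, (hu.conj b u (hle h1)).symm.mul_mul_mul_comm, h3, s, one_mul]
  · have s2 := s (b * b)
    rw [show b * b * u * (b * b)⁻¹ = b * (b * u * b⁻¹) * b⁻¹ by group] at s2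
    rw [← conj_mul (a := u) (b := b), ← conj_mul (a := b * u * b⁻¹) (b := b), h.b3', map_mul, map_mul, map_mul (π G) u, map_mul (π G) (b * u * b⁻¹),
      map_mul (π G) _ u, mul_assoc (π G u), ← mul_assoc (π G (b * u * b⁻¹)), s, one_mul, mul_assoc,
      ← mul_assoc (π G (b * _ * b⁻¹)), s2, one_mul, h3]

theorem exists_v (hR : IsPGroup 2 R) : ∃ u ∈ R, u ∉ center G ∧ Cz R u ∧ u * u = 1 ∧
    u * (b * u * b⁻¹) * (b * (b * u * b⁻¹) * b⁻¹) ∈ center G := by
  have := h.norm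
  obtain ⟨u, h1, h2, h3, h4, h5⟩ := h.exists_u hR le_rfl fun e => h.x_not_mem (e h.mem)
  by_cases h6 : u * u = 1
  · exact ⟨u, h1, h2, h3, h6, h5⟩
  obtain ⟨w, hw⟩ : ∃ w, w = b * u * b⁻¹ := ⟨_, rfl⟩
  obtain ⟨z, hz⟩ : ∃ z, z = u * u := ⟨_, rfl⟩
  rw [← hw] at h5
  rw [← hz] at h4 h6
  have w1 : w ∈ R := hw ▸ this.conj_mem u h1 b
  have w3 : Cz R w := hw ▸ h3.conj b
  have ww : w * w = z := by rw [hw, conj_mul, ← hz, ← (cen h4 b).eq]; simp
  have tπ : π G (b * w * b⁻¹) = π G (u * w)⁻¹ := by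
    rw [← π_one, map_mul] at h5
    rw [map_inv, eq_inv_of_mul_eq_one_right h5]
  have uw : u * w * (u * w) = z := by
    obtain ⟨c, hc, e⟩ := π_eq tπ
    have : b * w * b⁻¹ * (b * w * b⁻¹) = z := by rw [conj_mul, ww, ← (cen h4 b).eq]; simp
    rw [e, (cen hc _).symm.mul_mul_mul_comm, h.cen_sq hc, one_mul, ← mul_inv_rev] at this
    rw [inv_eq_iff_eq_inv.1 this, inv_eq_of_mul_eq_one_right (h.cen_sq h4)]
  have nc : ¬ Commute u w := fun e => h6 (by
    rw [← uw, e.symm.mul_mul_mul_comm, ← hz, ww, h.cen_sq h4])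
  let C := R ⊓ centralizer {u, w}
  have mC : ∀ {k}, k ∈ C ↔ k ∈ R ∧ Commute k u ∧ Commute k w := fun {k} => and_congr_right fun _ =>
    ⟨fun e => ⟨(e u (by simp)).symm, (e w (by simp)).symm⟩, fun e t ht => by
      rcases ht with rfl | rfl
      exacts [e.1.symm, e.2.symm]⟩
  have : C.Normal := normalizer_eq_top_iff.1 (eq_top_iff.2 (h.top.ge.trans (sup_le
    (fun r hr => mem_normalizer_fintype fun k hk => ?_)
    (zpowers_le.2 (mem_normalizer_fintype fun k hk => ?_)))))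
  rotate_left
  · obtain ⟨k1, k2, k3⟩ := mC.1 hk
    exact mC.2 ⟨this.conj_mem k k1 r, comm_conj (comm_of_π (by simpa using h3.π_conj (inv_mem hr)) k2),
      comm_conj (comm_of_π (by simpa using w3.π_conj (inv_mem hr)) k3)⟩
  · obtain ⟨k1, k2, k3⟩ := mC.1 hk
    refine mC.2 ⟨this.conj_mem k k1 b, comm_conj (comm_of_π (t := (u * w)⁻¹) ?_ (k2.mul_right k3).inv_right),
      comm_conj (by simpa [hw, mul_assoc] using k2)⟩
    rw [← tπ, hw]; nth_rw 1 [← h.b3' u]; simp [mul_assoc]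
  obtain ⟨u', a1, a2, a3, a4, a5⟩ := h.exists_u hR (K := C) inf_le_left fun e => by
    have k : ∀ s ∈ R, s * u * s⁻¹ = x * u * x⁻¹ → s * w * s⁻¹ = x * w * x⁻¹ → s = 1 ∨ s * s = z → False :=
      fun s hs e1 e2 e3 => by
        have k1 : ∀ {t}, s * t * s⁻¹ = x * t * x⁻¹ → Commute (s⁻¹ * x) t := fun {t} e => by
          rw [commute_iff_eq, show s⁻¹ * x * t = s⁻¹ * (x * t * x⁻¹) * x by group, ← e]; group
        have k2 := e (mC.2 ⟨mul_mem (inv_mem hs) h.mem, k1 e1, k1 e2⟩)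
        rcases e3 with rfl | e3
        · exact h.x_not_mem (by simpa using k2)
        · have k3 := h.xx
          rw [← mul_inv_cancel_left s x, (cen k2 s).mul_mul_mul_comm, h.cen_sq k2, mul_one] at k3
          exact h6 (e3.symm.trans k3)
    have e1 : u * w * u⁻¹ = z * w := (h.conj_or w3 h1 h4 h6).resolve_left fun e =>
      nc (mul_inv_eq_iff_eq_mul.1 e)
    have e2 : w * u * w⁻¹ = z * u := (h.conj_or h3 w1 h4 h6).resolve_left fun e =>
      nc (mul_inv_eq_iff_eq_mul.1 e).symm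
    rcases h.conj_or h3 h.mem h4 h6 with c1 | c1 <;> rcases h.conj_or w3 h.mem h4 h6 with c2 | c2
    · exact k 1 (one_mem _) (by simp [c1]) (by simp [c2]) (.inl rfl)
    · exact k u h1 (by simp [c1]) (by rw [c2, e1]) (.inr hz.symm)
    · exact k w w1 (by rw [c1, e2]) (by simp [c2]) (.inr ww)
    · refine k (u * w) (mul_mem h1 w1) ?_ ?_ (.inr uw)
      · rw [c1, show u * w * u * (u * w)⁻¹ = u * (w * u * w⁻¹) * u⁻¹ by group, e2, ← mul_assoc,
          ← (cen h4 u).eq]; simp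
      · rw [c2, ← e1]; group
  by_cases a6 : u' * u' = 1
  · exact ⟨u', a1.1, a2, a3, a6, a5⟩
  obtain ⟨k1, k2, k3⟩ := mC.1 a1
  refine ⟨u * u', mul_mem h1 k1, fun e => nc (comm_of_π (t := u'⁻¹) ?_ k3.symm.inv_right).symm,
    fun r hr => ?_, ?_, π_one.1 ?_⟩
  · rw [← π_one, map_mul] at e
    rw [map_inv, eq_inv_of_mul_eq_one_left e]
  · rw [map_mul]; exact (h3 r hr).mul_right (a3 r hr)
  · rw [k2.mul_mul_mul_comm, ← hz, h.cen_eq a4 h4 a6 h6, h.cen_sq h4]
  · rw [← π_one, map_mul, map_mul] at h5 a5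
    rw [← conj_mul (a := u) (b := b), ← hw, ← conj_mul (a := w) (b := b), map_mul, map_mul, map_mul (π G) u, map_mul (π G) w,
      map_mul (π G) (b * w * b⁻¹), (w3 u' k1).mul_mul_mul_comm, Commute.mul_mul_mul_comm, h5, a5, one_mul]
    exact (w3.conj b u' k1).mul_left (w3.conj b _ (h.norm.conj_mem u' k1 b))

theorem exists_cz (hR : IsPGroup 2 R) : ∃ u w, Irr ρ b u w R ∧ Cz R u := by
  have key : ∀ u ∈ R, u ∉ center G → Cz R u → u * u = 1 →
      u * (b * u * b⁻¹) * (b * (b * u * b⁻¹) * b⁻¹) = 1 → ∃ u w, Irr ρ b u w R ∧ Cz R u :=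
    fun u h1 h2 h3 h4 h5 => ⟨u, _, ⟨⟨h.inj, h.b3, h.rk, h4, fun e => h2 (e ▸ one_mem _), rfl, by
      refine ((eq_inv_of_mul_eq_one_left h5).trans (inv_eq_of_mul_eq_one_right ?_)).symm
      rw [conj_mul, conj_mul, h4]; simp⟩, h.norm, h.top, h.cop, h.cm, h1, h.irr⟩, h3⟩
  obtain ⟨u, h1, h2, h3, h4, h5⟩ := h.exists_v hR
  obtain ⟨c, hc⟩ : ∃ c, c = u * (b * u * b⁻¹) * (b * (b * u * b⁻¹) * b⁻¹) := ⟨_, rfl⟩
  have h6 := hc ▸ h5
  have e : ∀ g, b * (c * g) * b⁻¹ = c * (b * g * b⁻¹) := fun g => by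
    rw [← mul_assoc b, ← (cen h6 b).eq]; simp [mul_assoc]
  have n := h.norm.conj_mem u h1 b
  refine key (c * u) (mul_mem (hc ▸ mul_mem (mul_mem h1 n) (h.norm.conj_mem _ n b)) h1)
    (fun e => h2 ((mul_mem_cancel_left h6).1 e)) (fun r hr => ?_) ?_ ?_
  · rw [map_mul, π_one.2 h6, one_mul]; exact h3 r hr
  · rw [(cen h6 u).symm.mul_mul_mul_comm, h.cen_sq h6, h4, one_mul]
  · rw [e, e, (cen h6 u).symm.mul_mul_mul_comm, h.cen_sq h6, one_mul, ← mul_assoc, ← (cen h6 _).eq,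
      mul_assoc, ← hc, h.cen_sq h6]

end Irr

end H3F
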