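import Cfsg.Agent.Lib.H3F.C
import Cfsg.Agent.Lib.Core.Frattini
import Cfsg.Agent.Lib.Core.GrpBasic

/-! The irreducible situation with a normal complement of order a power of two. -/

set_option autoImplicit false
set_option linter.unusedSectionVars false

namespace H3F

open Subgroup Module Cfsg
open scoped commutatorElement

variable {G : Type*} [Group G] [Finite G] {V : Type*} [AddCommGroup V] [Module (ZMod 3) V] [Finite V]
  {ρ : Representation (ZMod 3) G V} {b x y : G} {R : Subgroup G}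

/-- The four-group. -/
def Hyp.four (h : Hyp ρ b x y) : Subgroup G where
  carrier := {1, x, y, x * y}
  one_mem' := .inl rfl
  mul_mem' := by
    have e1 : ∀ g, x * (x * g) = g := fun g => by rw [← mul_assoc, h.xx, one_mul]
    have e2 : ∀ g, y * (x * g) = x * (y * g) := fun g => by rw [← mul_assoc, ← h.comm.eq, mul_assoc]
    rintro _ _ (rfl | rfl | rfl | rfl) (rfl | rfl | rfl | rfl) <;>
      simp [h.xx, h.yy, e1, e2, ← h.comm.eq, mul_assoc]
  inv_mem' := by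
    rintro _ (rfl | rfl | rfl | rfl) <;>
      simp [inv_eq_of_mul_eq_one_right h.xx, inv_eq_of_mul_eq_one_right h.yy, h.comm.eq]

theorem Hyp.mem_four (h : Hyp ρ b x y) {g : G} : g ∈ h.four ↔ g = 1 ∨ g = x ∨ g = y ∨ g = x * y := Iff.rfl

theorem Hyp.card_four (h : Hyp ρ b x y) : Nat.card h.four = 4 := by
  have e : x ≠ y := fun e => h.xy1 (by rw [← e, h.xx])
  show ({1, x, y, x * y} : Set G).ncard = 4
  rw [Set.ncard_insert_of_notMem (by simp [h.x1.symm, h.y1.symm, h.xy1.symm]),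
    Set.ncard_insert_of_notMem (by simp [e, h.y1]), Set.ncard_pair (by simp [h.x1])]

theorem Hyp.four_sq (h : Hyp ρ b x y) {g : G} (hg : g ∈ h.four) : g * g = 1 := by
  rcases hg with rfl | rfl | rfl | rfl
  exacts [mul_one _, h.xx, h.yy, h.xy2]

theorem Hyp.four_norm (h : Hyp ρ b x y) : zpowers b ≤ normalizer (h.four : Set G) :=
  zpowers_le.2 (mem_normalizer_fintype fun g hg => by
    rcases hg with rfl | rfl | rfl | rfl <;> simp [h.mem_four, h.bx, h.by', h.bxy])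

omit [Finite G] in
theorem comm_of_sq {a c : G} (h1 : a * a = 1) (h2 : c * c = 1) (h3 : a * c * (a * c) = 1) : Commute a c := by
  have h1' := eq_inv_of_mul_eq_one_left h3
  rwa [mul_inv_rev, inv_eq_of_mul_eq_one_right h1, inv_eq_of_mul_eq_one_right h2] at h1'

omit [Finite G] in
theorem elem_of_sq {A : Subgroup G} (h : ∀ a ∈ A, a * a = 1) : IsElementaryAbelian 2 A :=
  ⟨⟨⟨fun a c => Subtype.ext (comm_of_sq (h a a.2) (h c c.2) (h _ (a * c).2))⟩⟩, fun a ha => sq a ▸ h a ha⟩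

/-- eigenvalues of `x` -/
def sx : Fin 4 → ZMod 3 := ![1, 1, -1, -1]
/-- eigenvalues of `y` -/
def sy : Fin 4 → ZMod 3 := ![1, -1, 1, -1]

theorem perm_aux : ∀ ε δ : ZMod 3, ε = 1 ∨ ε = -1 → δ = 1 ∨ δ = -1 → ∃ σ : Equiv.Perm (Fin 4),
    Equiv.Perm.sign σ = 1 ∧ (∀ i, sx (σ i) = ε * sx i ∧ sy (σ i) = δ * sy i ∧ σ (σ i) = i) ∧
      ∀ a : Fin 4 → ZMod 3, ∏ i, a i = 1 → (∀ i, a i * a (σ i) = 1) ∨ ∀ i, a i * a (σ i) = -1 := by
  rintro _ _ (rfl | rfl) (rfl | rfl)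
  · exact ⟨1, by decide +kernel⟩
  · exact ⟨Equiv.swap 0 1 * Equiv.swap 2 3, by decide +kernel⟩
  · exact ⟨Equiv.swap 0 2 * Equiv.swap 1 3, by decide +kernel⟩
  · exact ⟨Equiv.swap 0 3 * Equiv.swap 1 2, by decide +kernel⟩

theorem diag_aux : ∀ a : Fin 4 → ZMod 3, ∏ i, a i = 1 → ∃ η : ZMod 3, (η = 1 ∨ η = -1) ∧
    ((∀ i, a i = η) ∨ (∀ i, a i = η * sx i) ∨ (∀ i, a i = η * sy i) ∨ ∀ i, a i = η * (sx i * sy i)) := by
  decide +kernel

namespace Irr

variable (h : Irr ρ b x y R)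
include h

theorem π_of_pm {g k : G} (e : (∀ v, ρ g v = ρ k v) ∨ ∀ v, ρ g v = -ρ k v) : π G g = π G k := by
  rcases e with e | e
  · rw [h.ext e]
  · have := h.center_of_neg (c := k⁻¹ * g) fun v => by simp [e, act_inv]
    rwa [← π_one, map_mul, map_inv, inv_mul_eq_one, eq_comm] at this

theorem four_le : h.four ≤ R := by
  rintro _ (rfl | rfl | rfl | rfl)
  exacts [one_mem _, h.mem, h.memy, mul_mem h.mem h.memy]

theorem caseA (hx : ∀ r ∈ R, Commute r x) : R = h.four := by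
  obtain ⟨e, he⟩ := h.exists_fr
  have hy : ∀ r ∈ R, Commute r y := fun r hr => by
    simpa [← h.bx, mul_assoc] using (hx _ (h.norm.conj_mem' r hr b)).map (MulAut.conj b)
  let N := Submodule.span (ZMod 3) {e, ρ b e, ρ b (ρ b e)}
  have m1 : e ∈ N := Submodule.subset_span (by simp)
  have m2 : ρ b e ∈ N := Submodule.subset_span (by simp)
  have m3 : ρ b (ρ b e) ∈ N := Submodule.subset_span (by simp)
  have k : ∀ g, ρ g e ∈ N → ρ g (ρ b e) ∈ N → ρ g (ρ b (ρ b e)) ∈ N → ∀ v ∈ N, ρ g v ∈ N :=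
    fun g a1 a2 a3 v hv => (Submodule.span_le (p := N.comap (ρ g))).2 (by
      rintro _ (rfl | rfl | rfl) <;> assumption) hv
  have hN : N = ⊤ := (h.irr N (h.inv_all (fun r hr => by
    obtain ⟨s1, s2, s3⟩ := he.signs (hx r hr) (hy r hr)
    exact k r (by rcases s1 with s | s <;> simp [s, m1]) (by rcases s2 with s | s <;> simp [s, m2])
      (by rcases s3 with s | s <;> simp [s, m3])) (k b m2 m3 (by rwa [h.vbbb])))).resolve_left
        fun e' => he.ne (e'.le m1)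
  have ex : ∀ {f f' : V →ₗ[ZMod 3] V}, f e = f' e → f (ρ b e) = f' (ρ b e) →
      f (ρ b (ρ b e)) = f' (ρ b (ρ b e)) → ∀ v, f v = f' v := fun a1 a2 a3 v =>
    LinearMap.eqOn_span (by rintro _ (rfl | rfl | rfl) <;> assumption) (hN.ge (Submodule.mem_top (x := v)))
  have p : ∀ {r} q, q ∈ h.four → ρ r e = ρ q e ∧ ρ r (ρ b e) = ρ q (ρ b e) ∧
      ρ r (ρ b (ρ b e)) = ρ q (ρ b (ρ b e)) ∨ ρ r e = -ρ q e ∧ ρ r (ρ b e) = -ρ q (ρ b e) ∧
      ρ r (ρ b (ρ b e)) = -ρ q (ρ b (ρ b e)) → ∃ q ∈ h.four, π G r = π G q := fun q hq e =>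
    ⟨q, hq, h.π_of_pm (e.imp (fun e => ex e.1 e.2.1 e.2.2) fun e => ex (f' := -ρ q) e.1 e.2.1 e.2.2)⟩
  refine le_antisymm (h.cm.trans (commutator_le.2 fun r hr k hk => ?_)) h.four_le
  obtain ⟨q, hq, e1⟩ : ∃ q ∈ h.four, π G r = π G q := by
    have := he.e1
    have := he.e2
    have := he.e3
    obtain ⟨s1 | s1, s2 | s2, s3 | s3⟩ := he.signs (hx r hr) (hy r hr)
    exacts [p 1 (by simp [h.mem_four]) (by simp [*]), p (x * y) (by simp [h.mem_four]) (by simp [*]),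
      p y (by simp [h.mem_four]) (by simp [*]), p x (by simp [h.mem_four]) (by simp [*]),
      p x (by simp [h.mem_four]) (by simp [*]), p y (by simp [h.mem_four]) (by simp [*]),
      p (x * y) (by simp [h.mem_four]) (by simp [*]), p 1 (by simp [h.mem_four]) (by simp [*])]
  obtain ⟨c, hc, rfl⟩ := π_eq e1
  rw [show ⁅c * q, k⁆ = c * (q * k * q⁻¹) * c⁻¹ * k⁻¹ by simp [commutatorElement_def, mul_assoc],
    (cen hc _).eq, mul_inv_cancel_right, mul_assoc, mul_assoc, ← mul_assoc k]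
  exact mul_mem hq (H2.conj_mem_of_le_normalizer h.four_norm hk (inv_mem hq))

theorem det_one {r : G} (hr : r ∈ R) : LinearMap.det (ρ r) = 1 := by
  have : ⁅R, zpowers b⁆ ≤ (LinearMap.det.comp ρ).toHomUnits.ker :=
    (commutator_mono le_top le_top).trans (Abelianization.commutator_subset_ker _)
  exact congrArg Units.val (this (h.cm hr))

variable (hz : Cz R x) {z : G} (z1 : z ∈ center G) (z2 : z ≠ 1)
include hz z1 z2

theorem exists_r {r : G} (hr : r ∈ R) (e : ¬ Commute r x) :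
    (∃ r ∈ R, r * x * r⁻¹ = z * x ∧ r * y * r⁻¹ = y) ∧ ∃ r ∈ R, r * x * r⁻¹ = x ∧ r * y * r⁻¹ = z * y := by
  have := h.norm
  have hy : Cz R y := h.bx ▸ hz.conj b
  have c : ∀ g, b * (z * g) * b⁻¹ = z * (b * g * b⁻¹) := fun g => by
    rw [← mul_assoc b, ← (cen z1 b).eq]; simp [mul_assoc]
  have k : ∀ r u, b * r * b⁻¹ * (b * u * b⁻¹) * (b * r * b⁻¹)⁻¹ = b * (r * u * r⁻¹) * b⁻¹ := by
    intros; group
  have kx : ∀ r, b * r * b⁻¹ * x * (b * r * b⁻¹)⁻¹ = b * (r * x * r⁻¹ * (r * y * r⁻¹)) * b⁻¹ := fun r => by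
    rw [conj_mul, ← k, h.bxy]
  have ky : ∀ r, b * r * b⁻¹ * y * (b * r * b⁻¹)⁻¹ = b * (r * x * r⁻¹) * b⁻¹ := fun r => by
    rw [← k, h.bx]
  have s1 : (∃ r ∈ R, r * x * r⁻¹ = z * x ∧ r * y * r⁻¹ = y) →
      ∃ r ∈ R, r * x * r⁻¹ = z * x ∧ r * y * r⁻¹ = z * y := fun ⟨r, hr, e1, e2⟩ =>
    ⟨_, this.conj_mem r hr b, by rw [kx, e1, e2, mul_assoc z, c, h.bxy], by rw [ky, e1, c, h.bx]⟩
  have s2 : (∃ r ∈ R, r * x * r⁻¹ = z * x ∧ r * y * r⁻¹ = z * y) →
      ∃ r ∈ R, r * x * r⁻¹ = x ∧ r * y * r⁻¹ = z * y := fun ⟨r, hr, e1, e2⟩ =>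
    ⟨_, this.conj_mem r hr b, by
      rw [kx, e1, e2, (cen z1 x).symm.mul_mul_mul_comm, h.cen_sq z1, one_mul, h.bxy],
      by rw [ky, e1, c, h.bx]⟩
  have s3 : (∃ r ∈ R, r * x * r⁻¹ = x ∧ r * y * r⁻¹ = z * y) →
      ∃ r ∈ R, r * x * r⁻¹ = z * x ∧ r * y * r⁻¹ = y := fun ⟨r, hr, e1, e2⟩ =>
    ⟨_, this.conj_mem r hr b, by
      rw [kx, e1, e2, ← mul_assoc x, ← (cen z1 x).eq, mul_assoc z, c, h.bxy], by rw [ky, e1, h.bx]⟩
  have e1 := (h.conj_or hz hr z1 z2).resolve_left fun e' => e (mul_inv_eq_iff_eq_mul.1 e')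
  rcases h.conj_or hy hr z1 z2 with e2 | e2
  · exact ⟨⟨r, hr, e1, e2⟩, s2 (s1 ⟨r, hr, e1, e2⟩)⟩
  · exact ⟨s3 (s2 ⟨r, hr, e1, e2⟩), s2 ⟨r, hr, e1, e2⟩⟩

theorem act_sign {u r : G} (hu : Cz R u) (hr : r ∈ R) : ∃ ε : ZMod 3, (ε = 1 ∨ ε = -1) ∧
    ∀ v, ρ u (ρ r v) = ε • ρ r (ρ u v) := by
  have k : ∀ v, ρ u (ρ r v) = ρ r (ρ (r⁻¹ * u * r⁻¹⁻¹) v) := fun v => by simp [act_inv']
  rcases h.conj_or hu (inv_mem hr) z1 z2 with e | e
  · exact ⟨1, .inl rfl, fun v => by rw [k, e, one_smul]⟩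
  · exact ⟨-1, .inr rfl, fun v => by
      rw [k, e, act_mul, (h.central z1).resolve_left z2, map_neg, neg_one_smul]⟩

theorem exists_basis {r : G} (e1 : r * x * r⁻¹ = z * x) (e2 : r * y * r⁻¹ = y) :
    ∃ B : Basis (Fin 4) (ZMod 3) V, (∀ i, ρ x (B i) = sx i • B i ∧ ρ y (B i) = sy i • B i) ∧
      ∀ i v, ρ x v = sx i • v → ρ y v = sy i • v → ∃ a : ZMod 3, v = a • B i := by
  obtain ⟨e, he⟩ := h.exists_fr
  have n := (h.central z1).resolve_left z2
  have k1 : ∀ v, ρ r (ρ x v) = -ρ x (ρ r v) := fun v => by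
    rw [← n, ← act_mul z, ← e1]; simp [act_inv]
  have k2 : ∀ v, ρ r (ρ y v) = ρ y (ρ r v) := fun v => by
    nth_rw 2 [← e2]; simp [act_inv]
  obtain ⟨e0, h0⟩ : ∃ e0, ρ r e0 = ρ b e := ⟨_, act_inv' r _⟩
  have i : Function.Injective (ρ r) := fun v w e => by rw [← act_inv (ρ := ρ) r v, e, act_inv]
  have a0 : ρ x e0 = e0 ∧ ρ y e0 = e0 := ⟨i (by rw [k1, h0, he.e2.1, neg_neg]), i (by rw [k2, h0, he.e2.2])⟩
  have l0 : ∀ v, ρ x v = v ∧ ρ y v = v → ∃ a : ZMod 3, v = a • e0 := fun v hv =>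
    (he.l2 (ρ r v) ⟨by rw [← neg_eq_iff_eq_neg, ← k1, hv.1], by rw [← k2, hv.2]⟩).imp fun a e =>
      i (by rw [e, map_smul, h0])
  have n0 : e0 ≠ 0 := fun e => act_ne b he.ne (by rw [← h0, e, map_zero])
  have li : LinearIndependent (ZMod 3) ![e0, e, ρ b e, ρ b (ρ b e)] :=
    Fintype.linearIndependent_iff.2 fun g hg i => by
      obtain ⟨c0, c1, c2, c3⟩ := Hyp.indep (ρ := ρ) (x := x) (y := y) (v0 := g 0 • e0) (v1 := g 1 • e)
        (v2 := g 2 • ρ b e) (v3 := g 3 • ρ b (ρ b e)) (by simp [a0]) (by simp [he.e1]) (by simp [he.e2])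
        (by simp [he.e3]) (by simpa [Fin.sum_univ_four] using hg)
      fin_cases i
      exacts [(smul_eq_zero.1 c0).resolve_right n0, (smul_eq_zero.1 c1).resolve_right he.ne,
        (smul_eq_zero.1 c2).resolve_right (act_ne b he.ne),
        (smul_eq_zero.1 c3).resolve_right (act_ne b (act_ne b he.ne))]
  refine ⟨Basis.mk li fun v _ => ?_, fun i => ?_, fun i v => ?_⟩
  · obtain ⟨v0, a1, a2, a3, h0, rfl⟩ := he.dec v
    obtain ⟨a0, rfl⟩ := l0 v0 h0
    exact (Submodule.mem_span_range_iff_exists_fun _).2 ⟨![a0, a1, a2, a3], by simp [Fin.sum_univ_four]⟩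
  · fin_cases i <;> simp [sx, sy, a0, he.e1, he.e2, he.e3]
  · fin_cases i <;> simp only [sx, sy, Basis.mk_apply] <;> intro c1 c2
    exacts [l0 v (by simpa using And.intro c1 c2), he.l1 v (by simpa using And.intro c1 c2),
      he.l2 v (by simpa using And.intro c1 c2), he.l3 v (by simpa using And.intro c1 c2)]

omit hz z1 z2 in
theorem mono {B : Basis (Fin 4) (ZMod 3) V} (h1 : ∀ i, ρ x (B i) = sx i • B i ∧ ρ y (B i) = sy i • B i)
    (h2 : ∀ i v, ρ x v = sx i • v → ρ y v = sy i • v → ∃ a : ZMod 3, v = a • B i) {r : G} (hr : r ∈ R)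
    {ε δ : ZMod 3} (e1 : ∀ v, ρ x (ρ r v) = ε • ρ r (ρ x v)) (e2 : ∀ v, ρ y (ρ r v) = δ • ρ r (ρ y v))
    {σ : Equiv.Perm (Fin 4)} (s1 : Equiv.Perm.sign σ = 1)
    (s2 : ∀ i, sx (σ i) = ε * sx i ∧ sy (σ i) = δ * sy i) :
    ∃ a : Fin 4 → ZMod 3, ∏ i, a i = 1 ∧ ∀ i, ρ r (B i) = a i • B (σ i) := by
  choose a ha using fun i => h2 (σ i) (ρ r (B i)) (by rw [e1, (h1 i).1, (s2 i).1, map_smul, smul_smul])
    (by rw [e2, (h1 i).2, (s2 i).2, map_smul, smul_smul])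
  refine ⟨a, ?_, ha⟩
  have := B.det_comp (ρ r) B
  rw [h.det_one hr, B.det_self, show ρ r ∘ B = fun i => a i • (B ∘ σ) i from funext ha,
    AlternatingMap.map_smul_univ, AlternatingMap.map_perm, s1, B.det_self] at this
  simpa using this

theorem caseB {r : G} (hr : r ∈ R) (e : ¬ Commute r x) : (∀ r ∈ R, r * r ∈ center G) ∧
    ∀ r ∈ R, Commute r x → Commute r y → ∃ q ∈ h.four, π G r = π G q := by
  have := h.norm
  obtain ⟨⟨r1, -, a1, a2⟩, -⟩ := h.exists_r hz z1 z2 hr e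
  obtain ⟨B, h1, h2⟩ := h.exists_basis hz z1 z2 a1 a2
  have p : ∀ {g k : G} {η : ZMod 3}, η = 1 ∨ η = -1 → (∀ i, ρ g (B i) = η • ρ k (B i)) → π G g = π G k :=
    fun {g k η} c1 c2 => by
      have := B.ext (f₁ := ρ g) (f₂ := η • ρ k) c2
      exact h.π_of_pm (c1.imp (fun e v => by simp [this, e]) fun e v => by simp [this, e])
  refine ⟨fun r hr => ?_, fun r hr c1 c2 => ?_⟩
  · obtain ⟨ε, b1, b2⟩ := h.act_sign hz z1 z2 hz hr
    obtain ⟨δ, b3, b4⟩ := h.act_sign hz z1 z2 (h.bx ▸ hz.conj b : Cz R y) hr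
    obtain ⟨σ, s1, s2, s3⟩ := perm_aux ε δ b1 b3
    obtain ⟨a, c1, c2⟩ := h.mono h1 h2 hr b2 b4 s1 fun i => ⟨(s2 i).1, (s2 i).2.1⟩
    rw [← π_one, ← map_one (π G)]
    rcases s3 a c1 with s | s
    · exact p (.inl rfl) fun i => by simp [c2, smul_smul, s, (s2 i).2.2]
    · exact p (.inr rfl) fun i => by simp [c2, smul_smul, s, (s2 i).2.2]
  · obtain ⟨a, b1, b2⟩ := h.mono h1 h2 hr (ε := 1) (δ := 1) (σ := 1) (by simp [act_comm c1])
      (by simp [act_comm c2]) (by simp) (by simp)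
    obtain ⟨η, c3, s | s | s | s⟩ := diag_aux a b1
    exacts [⟨1, by simp [h.mem_four], p c3 fun i => by simp [b2, s]⟩,
      ⟨x, by simp [h.mem_four], p c3 fun i => by simp [b2, s, h1, smul_smul]⟩,
      ⟨y, by simp [h.mem_four], p c3 fun i => by simp [b2, s, h1, smul_smul]⟩,
      ⟨x * y, by simp [h.mem_four], p c3 fun i => by simp [b2, s, h1, smul_smul, mul_comm]⟩]

theorem relIndex_two {u r : G} (hu : Cz R u) {H : Subgroup G} (hH : H ≤ R) (hr : r ∈ H)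
    (e : r * u * r⁻¹ = z * u) : (centralizer {u}).relIndex H = 2 := by
  have k : ∀ g, g ∈ centralizer {u} ↔ g * u * g⁻¹ = u := fun g => by
    rw [mem_centralizer_singleton_iff, mul_inv_eq_iff_eq_mul]
  have k2 : ∀ g, g * r * u * (g * r)⁻¹ = z * (g * u * g⁻¹) := fun g => by
    rw [show g * r * u * (g * r)⁻¹ = g * (r * u * r⁻¹) * g⁻¹ by group, e, ← mul_assoc g, ← (cen z1 g).eq]
    simp [mul_assoc]
  refine relIndex_eq_two_iff.2 ⟨r, hr, fun g hg => ?_⟩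
  rw [k, k, k2]
  rcases h.conj_or hu (hH hg) z1 z2 with c | c <;> simp [c, z2, ← mul_assoc, h.cen_sq z1]

end Irr

theorem Irr.two (h : Irr ρ b x y R) (hR : IsPGroup 2 R) : (IsElementaryAbelian 2 R ∧ Nat.card R = 4) ∨
    (IsExtraspecial 2 R ∧ Nat.card R = 32 ∧ ∃ A ≤ R, IsElementaryAbelian 2 A ∧ Nat.card A = 8) := by
  obtain ⟨x, y, h, hz⟩ := h.exists_cz hR
  by_cases hx : ∀ r ∈ R, Commute r x
  · exact .inl (by rw [h.caseA hx]; exact ⟨elem_of_sq fun _ => h.four_sq, h.card_four⟩)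
  push Not at hx
  obtain ⟨r, hr, e⟩ := hx
  obtain ⟨z, z1, e0⟩ := π_eq (hz.π_conj hr)
  have z2 : z ≠ 1 := fun e' => e (mul_inv_eq_iff_eq_mul.1 (by simpa [e'] using e0))
  have := h.norm
  have hy : Cz R y := h.bx ▸ hz.conj b
  have zc : z = ⁅r, x⁆ := by rw [commutatorElement_def, e0, mul_inv_cancel_right]
  have zR : center G ≤ R := fun c hc => by
    by_cases c1 : c = 1
    · exact c1 ▸ one_mem _
    · rw [h.cen_eq hc z1 c1 z2, zc]
      exact mul_mem (this.conj_mem x h.mem r) (inv_mem h.mem)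
  have cZ : Nat.card (center G) = 2 := (Nat.card_eq_two_iff' 1).2 ⟨⟨z, z1⟩,
    fun e => z2 (congrArg Subtype.val e), fun c hc => Subtype.ext (h.cen_eq c.2 z1
      (fun e => hc (Subtype.ext e)) z2)⟩
  obtain ⟨⟨r1, m1, a1, a2⟩, r2, m2, a3, a4⟩ := h.exists_r hz z1 z2 hr e
  obtain ⟨k1, k2⟩ := h.caseB hz z1 z2 hr e
  have n1 : ¬ Commute r1 x := fun e => z2 (by simpa [e.eq] using a1.symm)
  have n2 : ¬ Commute r2 y := fun e => z2 (by simpa [e.eq] using a4.symm)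
  have c1 : Commute r1 y := mul_inv_eq_iff_eq_mul.1 a2
  have k3 : ∀ c q, q ∈ h.four → π G c = π G q → Commute r1 c → Commute r2 c → q = 1 := by
    rintro c _ (rfl | rfl | rfl | rfl) e b1 b2
    exacts [rfl, (n1 (comm_of_π e.symm b1)).elim, (n2 (comm_of_π e.symm b2)).elim,
      (n1 (by simpa using (comm_of_π e.symm b1).mul_right c1.inv_right)).elim]
  have hD : h.four ⊔ center G = centralizer {y} ⊓ (centralizer {x} ⊓ R) := by
    refine le_antisymm (sup_le ?_ fun c hc => ⟨mem_centralizer_singleton_iff.2 (cen hc y),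
      mem_centralizer_singleton_iff.2 (cen hc x), zR hc⟩) fun r hr => ?_
    · exact fun q hq => ⟨mem_centralizer_singleton_iff.2 (comm_of_sq (h.four_sq hq) h.yy
        (h.four_sq (mul_mem hq (by simp [h.mem_four])))), mem_centralizer_singleton_iff.2
        (comm_of_sq (h.four_sq hq) h.xx (h.four_sq (mul_mem hq (by simp [h.mem_four])))), h.four_le hq⟩
    · obtain ⟨q, hq, e⟩ := k2 r hr.2.2 (mem_centralizer_singleton_iff.1 hr.2.1)
        (mem_centralizer_singleton_iff.1 hr.1)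
      obtain ⟨c, hc, rfl⟩ := π_eq e
      exact mul_mem (mem_sup_right hc) (mem_sup_left hq)
  have cD : Nat.card (h.four ⊔ center G : Subgroup G) = 8 := by
    rw [H2.card_sup_of_le_normalizer (center_le_normalizer _) (eq_bot_iff.2 fun c hc =>
      k3 c c hc.2 rfl (cen hc.1 _).symm (cen hc.1 _).symm), h.card_four, cZ]
  have hZ : center R = (center G).subgroupOf R := by
    refine le_antisymm (fun c hc => ?_) fun c hc => mem_center_iff.2 fun g => Subtype.ext (cen hc g).symm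
    have k : ∀ r ∈ R, Commute r c := fun r hr => congrArg Subtype.val (mem_center_iff.1 hc ⟨r, hr⟩)
    obtain ⟨q, hq, e⟩ := k2 c c.2 (k x h.mem).symm (k y h.memy).symm
    rw [k3 c q hq e (k _ m1) (k _ m2), map_one, π_one] at e
    exact e
  have hc : commutator R = center R := by
    rw [hZ]
    refine le_antisymm (commutator_le.2 fun s _ t _ => π_one.1 ?_) fun c hc => ?_
    · have k : ∀ s ∈ R, π G s * π G s = 1 := fun s hs => by rw [← map_mul, π_one]; exact k1 s hs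
      exact (map_commutatorElement ((π G).comp R.subtype) s t).trans (comm_of_sq (k s s.2) (k t t.2)
        (by simpa using k _ (s * t).2)).commutator_eq
    · by_cases c1 : c = 1
      · exact c1 ▸ one_mem _
      · rw [show c = ⁅(⟨r, hr⟩ : R), (⟨x, h.mem⟩ : R)⁆ from Subtype.ext
          ((h.cen_eq hc z1 (fun e => c1 (Subtype.ext e)) z2).trans zc)]
        exact commutator_mem_commutator (mem_top _) (mem_top _)
  refine .inr ⟨⟨⟨hR, le_antisymm ((H1.frattini_le_iff_of_isPGroup hR).2 ⟨hc.le, fun s => ?_⟩)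
    (hc ▸ H1.commutator_le_frattini hR), hc⟩, by rw [hZ, H2.card_subgroupOf_of_le zR, cZ]⟩, ?_,
    _, sup_le h.four_le zR, elem_of_sq fun a ha => ?_, cD⟩
  · rw [hZ, sq]; exact k1 s s.2
  · rw [← H1.card_inf_mul_relIndex (centralizer {x}), ← H1.card_inf_mul_relIndex (centralizer {y}), ← hD, cD,
      h.relIndex_two hz z1 z2 hz le_rfl m1 a1, h.relIndex_two hz z1 z2 hy inf_le_right
        ⟨mem_centralizer_singleton_iff.2 (mul_inv_eq_iff_eq_mul.1 a3), m2⟩ a4]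
  · obtain ⟨q, hq, c, hc, rfl⟩ := (H2.mem_sup_iff_of_le_normalizer (center_le_normalizer _)).1 ha
    rw [(cen hc q).mul_mul_mul_comm, h.four_sq hq, h.cen_sq hc, one_mul]

end H3F
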