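import Cfsg.Agent.Lib.H3F.D
import Cfsg.Agent.Lib.Core.Permutable
import Cfsg.Agent.Lib.FGS.OrbitCong

/-! The normal complement is a 2-group. -/

set_option autoImplicit false
set_option linter.unusedSectionVars false

namespace H3F

open Subgroup Module Cfsg
open scoped commutatorElement

variable {G : Type*} [Group G] [Finite G] {V : Type*} [AddCommGroup V] [Module (ZMod 3) V] [Finite V]
  {ρ : Representation (ZMod 3) G V} {b x y : G} {R : Subgroup G}

theorem cop23 {R : Subgroup G} (hR : IsPGroup 2 R) : (Nat.card R).Coprime 3 := by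
  obtain ⟨n, e⟩ := IsPGroup.iff_card.1 hR
  rw [e]; exact Nat.Coprime.pow_left n (by norm_num)

theorem Hyp.cop (h : Hyp ρ b x y) (hR : (Nat.card R).Coprime 3) :
    (Nat.card (zpowers b)).Coprime (Nat.card R) := by
  rw [Nat.card_zpowers]
  exact hR.symm.coprime_dvd_left (orderOf_dvd_of_pow_eq_one h.b3)

theorem Hyp.mem_comm (h : Hyp ρ b x y) (hx : x ∈ R) : x ∈ ⁅R, zpowers b⁆ := by
  have h1 : ⁅x, b⁆ = x * y := by
    rw [commutatorElement_def, inv_eq_of_mul_eq_one_right h.xx, ← h.bx]; simp [mul_assoc]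
  have := normalizer_commutator_ge_right R (zpowers b) (mem_zpowers b)
  rw [← h.bxy, ← h1]
  exact (mem_normalizer_iff.1 this _).1 (commutator_mem_commutator hx (mem_zpowers b))

theorem Hyp.card_le (h : Hyp ρ b x y) (hb : zpowers b ≤ normalizer (R : Set G)) (hR : IsPGroup 2 R)
    (hx : x ∈ R) : Nat.card (⁅R, zpowers b⁆ : Subgroup G) ≤ 32 := by
  have h1 := hR.to_le (H2.commutator_le_of_le_normalizer hb)
  obtain ⟨F, -, -, -, -, -, -, -, ρ', b', x', y', h2⟩ := h.exists_irr (R := ⁅R, zpowers b⁆)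
    (normalizer_commutator_ge_right _ _) (cop23 h1)
    (H2.commutator_commutator_eq hb (h.cop (cop23 hR))).ge (h.mem_comm hx)
  rw [← H2.card_subgroupOf_of_le (le_sup_left (b := zpowers b))]
  rcases h2.two (h1.comap_of_injective _ (subtype_injective _)) with e | e
  exacts [e.2.le.trans (by norm_num), e.2.1.le]

theorem exists_ord {r : ℕ} (hr : r.Prime) {P : Subgroup G} (hP : IsPGroup r P) {g : G} (hg : g ∈ P)
    (h1 : g ≠ 1) : ∃ a ∈ zpowers g, a ≠ 1 ∧ a ^ r = 1 := by
  have := Fact.mk hr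
  obtain ⟨a, ha⟩ := exists_prime_orderOf_dvd_card' (G := zpowers g) r
    ((hP.to_le (zpowers_le.2 hg)).card_eq_or_dvd.resolve_left (by simpa using h1))
  exact ⟨a, a.2, fun e => hr.ne_one (by rw [← ha, orderOf_eq_one_iff]; exact Subtype.ext e),
    congrArg Subtype.val (ha ▸ pow_orderOf_eq_one a)⟩

theorem aux5 : ∀ m : ZMod 5, 1 + m + m * m ≠ 0 := by decide

namespace Irr

variable (h : Irr ρ b x y R) [Group.IsSolvable G]
include h

theorem core_bot : pPrimeCore 2 G = ⊥ := by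
  by_contra hn
  have := h.norm
  obtain ⟨N, h1, h2, h3, p, hp, h4, h5, -⟩ := H3.exists_normal_elementary_le _ hn inferInstance
  have nN : N.Normal := h1.1
  have p2 : p ≠ 2 := by
    rintro rfl
    exact H1.not_dvd_card_pPrimeCore (h4.trans (card_dvd_of_le h2))
  have po := hp.odd_of_ne_two p2
  have c : ∀ a ∈ N, ∀ a' ∈ N, Commute a a' := fun a ha a' ha' =>
    congrArg Subtype.val (h3.is_comm.comm ⟨a, ha⟩ ⟨a', ha'⟩)
  have s : ∀ a ∈ N, a * a = 1 → a = 1 := fun a ha e =>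
    eq_one_of_pow (m := 2) (po.coprime_two_left) (sq a ▸ e) (h5 a ha)
  have k : ∀ {x y}, Hyp ρ b x y → y ∈ R → ∀ a ∈ N, Commute a x → y * a * y⁻¹ = a⁻¹ → a = 1 :=
    fun {x y} h' hy a ha e1 e2 => by
      obtain ⟨e, he⟩ := h'.exists_fr
      by_cases p3 : p = 3
      · have e3 : a * a ∈ R := by
          rw [show a * a = a * y * a⁻¹ * y⁻¹ by
            rw [mul_assoc, mul_assoc, ← mul_assoc y, ← conj_inv, e2, inv_inv]]
          exact mul_mem (this.conj_mem y hy a) (inv_mem hy)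
        exact s a ha (eq_one_of_pow h.cop (congrArg Subtype.val (pow_card_eq_one' (x := (⟨_, e3⟩ : R))))
          (p3 ▸ h5 _ (mul_mem ha ha)))
      · exact he.eq_one_of_inv hp (hp.five_le_of_ne_two_of_ne_three p2 p3) (h5 a ha) e1 e2
  have ky : ∀ a ∈ N, Commute a y := fun a ha => by
    obtain ⟨d, hd⟩ : ∃ d, d = a⁻¹ * (y * a * y⁻¹) := ⟨_, rfl⟩
    have m : d ∈ N := hd ▸ mul_mem (inv_mem ha) (nN.conj_mem a ha y)
    have i : ∀ {u : G}, u * u = 1 → ∀ g, u * (u * g * u⁻¹) * u⁻¹ = g := fun {u} e g => by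
      rw [show u * (u * g * u⁻¹) * u⁻¹ = u * u * g * (u * u)⁻¹ by group, e]; simp
    have e1 : y * d * y⁻¹ = d⁻¹ := by rw [hd, ← conj_mul, i h.yy]; group
    have m' := nN.conj_mem d m x
    have e2 : d * (x * d * x⁻¹) = 1 := k h.toHyp h.memy _ (mul_mem m m')
      (mul_inv_eq_iff_eq_mul.1 (by rw [← conj_mul, i h.xx, (c _ m _ m').eq]) :
        x * (d * (x * d * x⁻¹)) = _).symm (by
      rw [← conj_mul, e1, show y * (x * d * x⁻¹) * y⁻¹ = y * x * d * (y * x)⁻¹ by group, ← h.comm.eq,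
        show x * y * d * (x * y)⁻¹ = x * (y * d * y⁻¹) * x⁻¹ by group, e1, (c _ m _ m').eq]
      group)
    replace e2 := eq_inv_of_mul_eq_one_right e2
    have e3 : y * (x * y) = x := by rw [h.comm.eq, ← mul_assoc, h.yy, one_mul]
    have e4 : d = 1 := k h.rot.rot (e3.symm ▸ h.mem) d m (mul_inv_eq_iff_eq_mul.1 (by
      rw [show x * y * d * (x * y)⁻¹ = x * (y * d * y⁻¹) * x⁻¹ by group, e1, conj_inv.symm, e2, inv_inv]) :
        x * y * d = _).symm (by rw [e3, e2])
    rw [hd, inv_mul_eq_one, eq_mul_inv_iff_mul_eq] at e4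
    exact e4
  obtain ⟨e, he⟩ := h.exists_fr
  have := h.eq_top (K := centralizer N) (fun a ha => he.commute_of_odd po (h5 a ha) (by
    simpa [← h.bx, mul_assoc] using (ky _ (nN.conj_mem a ha b)).map (MulAut.conj b⁻¹)) (ky a ha))
    fun r _ k hk => Normal.conj_mem inferInstance k hk r
  exact h1.2 (eq_bot_iff.2 fun a ha => s a ha (h.cen_sq (mem_center_iff.2 fun g =>
    (this.ge (mem_top g) a ha).symm)))

theorem idx (t : G) : (centralizer {t * b * t⁻¹}).relIndex (pCore 2 G) ≤ 32 := by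
  have h1 : (centralizer {b}).relIndex (pCore 2 G) ≤ 32 := by
    have h2 := h.card_le (R := pCore 2 G ⊔ h.four) (H2.le_normalizer_sup le_normalizer_of_normal h.four_norm)
      (H1.isPGroup_pCore.to_sup_of_normal_left (IsPGroup.of_card (n := 2) h.card_four))
      (mem_sup_right (by simp [h.mem_four]))
    refine le_trans ?_ ((card_le_of_le (commutator_mono le_sup_left le_rfl)).trans h2)
    have l := H2.commutator_le_of_le_normalizer (A := zpowers b) (K := pCore 2 G) le_normalizer_of_normal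
    refine Nat.card_le_card_of_surjective (fun n => QuotientGroup.mk (inclusion l n)) fun q => ?_
    obtain ⟨k, rfl⟩ := QuotientGroup.mk_surjective q
    obtain ⟨n, hn, c, hc, e⟩ := H2.exists_commutator_mul_centralizer le_normalizer_of_normal
      (h.toHyp.cop (cop23 H1.isPGroup_pCore)) (.inr inferInstance) k.2
    refine ⟨⟨n, hn⟩, QuotientGroup.eq.2 (mem_centralizer_singleton_iff.2 ?_)⟩
    simpa [e] using (hc.2 b (mem_zpowers b)).symm
  have e : centralizer {b} = (centralizer {t * b * t⁻¹}).comap (MulAut.conj t).toMonoidHom := by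
    ext g
    rw [mem_comap, mem_centralizer_singleton_iff, mem_centralizer_singleton_iff]
    exact ((MulAut.conj t).injective.eq_iff.symm.trans (by rw [map_mul, map_mul]; rfl)).trans Iff.rfl
  rwa [e, relIndex_comap, show (pCore 2 G).map (MulAut.conj t).toMonoidHom = pCore 2 G from
    H1.map_pCore_equiv (MulAut.conj t)] at h1

theorem not_thirteen {t a : G} (ha : a ∈ zpowers ⁅t, b⁆) (h1 : a ^ 13 = 1) : a = 1 := by
  have : Fact (Nat.Prime 13) := ⟨by norm_num⟩
  obtain ⟨n, hn⟩ := IsPGroup.iff_card.1 (H1.isPGroup_pCore (p := 2) (G := G))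
  have h2 := H77.card_modEq_card_inf_centralizer_pow (Q := pCore 2 G) (q := 13) (k := 1) (g := a)
    (le_normalizer_of_normal (K := ⊤) (mem_top a)) h1 0
  simp only [pow_zero, pow_one, zero_add] at h2
  have h3 : (centralizer {a}).relIndex (pCore 2 G) ≤ 32 * 32 := by
    refine le_trans (relIndex_le_of_le_left (fun c hc => ?_) (index_ne_zero_of_finite))
      (relIndex_inf_le.trans (Nat.mul_le_mul (h.idx t) (h.idx 1)))
    obtain ⟨k, rfl⟩ := ha
    refine mem_centralizer_singleton_iff.2 (Commute.zpow_right ?_ k)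
    exact Commute.mul_right (mem_centralizer_singleton_iff.1 hc.1)
      (Commute.inv_right (show c * b = b * c by simpa using mem_centralizer_singleton_iff.1 hc.2))
  have h4 := H1.card_inf_mul_relIndex (centralizer {a}) (pCore 2 G)
  obtain ⟨j, hj, h5⟩ := (Nat.dvd_prime_pow Nat.prime_two).1 (Dvd.intro _ (h4.trans hn))
  rw [inf_comm, h5, hn] at h2
  have h6 := dvd_of_modEq (by norm_num) Nat.prime_two (by norm_num) hj h2
  obtain ⟨k, rfl⟩ := Nat.exists_eq_add_of_le hj
  rw [h5, hn, pow_add, Nat.mul_right_inj (by positivity)] at h4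
  rw [h4, show 32 * 32 = 2 ^ 10 from rfl, Nat.pow_le_pow_iff_right (by norm_num)] at h3
  rw [Nat.add_sub_cancel_left] at h6
  obtain rfl : k = 0 := by interval_cases k <;> simp_all
  have h7 : a ∈ pCore 2 G := H1.centralizer_pCore_le_of_isSolvable h.core_bot fun g hg =>
    mem_centralizer_singleton_iff.1 (relIndex_eq_one.1 h4 hg)
  exact eq_one_of_pow (m := 2 ^ (j + 0)) (Nat.Coprime.pow_left _ (by norm_num))
    (hn ▸ congrArg Subtype.val (pow_card_eq_one' (x := (⟨a, h7⟩ : pCore 2 G)))) h1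

theorem le_cent {r : ℕ} (hr : r.Prime) (h5 : 5 ≤ r) {P : Subgroup G} (hP : IsPGroup r P)
    (hb : zpowers b ≤ normalizer (P : Set G)) : P ≤ centralizer {b} := fun t ht => by
  have := Fact.mk hr
  obtain ⟨e, he⟩ := h.exists_fr
  by_contra hn
  have a1 : ⁅t, b⁆ ≠ 1 := fun e => hn (mem_centralizer_singleton_iff.2 (commutatorElement_eq_one_iff_mul_comm.1 e))
  let W := Submodule.span (ZMod 3) {v | v ∈ [ρ b e - e, ρ b (ρ b e) - ρ b e, ρ t (ρ b e - e),
    ρ t (ρ b (ρ b e) - ρ b e)]}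
  have hW : finrank (ZMod 3) W ≤ 4 := finrank_span_list _
  have b1 : b ∈ H3F.cm ρ W := he.sub_mem (Submodule.subset_span (by simp)) (Submodule.subset_span (by simp))
  have b2 : t * b * t⁻¹ ∈ H3F.cm ρ W := fun v => by
    simpa [act_inv'] using he.sub_mem (W := W.comap (ρ t)) (Submodule.subset_span (by simp))
      (Submodule.subset_span (by simp)) (ρ t⁻¹ v)
  have a2 : ⁅t, b⁆ ∈ H3F.cm ρ W ⊓ P := mem_inf.2 ⟨mul_mem b2 (inv_mem b1),
    H2.commutator_le_of_le_normalizer hb (commutator_mem_commutator ht (mem_zpowers b))⟩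
  have iW : ∀ g ∈ H3F.cm ρ W, ∀ v ∈ W, ρ g v ∈ W := fun g hg v hv => by simpa using W.add_mem (hg v) hv
  have k : ∀ g ∈ H3F.cm ρ W ⊓ P, g ≠ 1 → ∃ a ∈ zpowers g, a ≠ 1 ∧ a ^ r = 1 ∧ (r = 13 ∨ r = 5 ∧
      finrank (ZMod 3) W = 4 ∧ ∀ v ∈ W, ρ g v = v → v = 0) := fun g hg g1 => by
    obtain ⟨a, c1, c2, c3⟩ := exists_ord hr hP hg.2 g1
    have c4 := zpowers_le.2 hg.1 c1
    refine ⟨a, c1, c2, c3, ?_⟩
    rcases fix_or hr (by omega) c3 (iW a c4) with c5 | ⟨k, c5, c6, c7⟩
    · exact (c2 (eq_one_of_pow ((Nat.coprime_primes Nat.prime_three hr).2 (by omega))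
        (h.eq_one fun v => cube (c5 _ (c4 v))) c3)).elim
    have d : ∀ {m q n}, q.Prime → r ∣ 2 ^ m * q ^ n → r = q ∧ n ≠ 0 := fun {m q n} hq e => by
      rcases (Nat.Prime.dvd_mul hr).1 e with e | e
      · have := Nat.le_of_dvd two_pos (hr.dvd_of_dvd_pow e); omega
      · exact ⟨(Nat.prime_dvd_prime_iff_eq hr hq).1 (hr.dvd_of_dvd_pow e), by
          rintro rfl; exact hr.ne_one (by simpa using e)⟩
    obtain rfl | rfl | rfl | rfl : k = 1 ∨ k = 2 ∨ k = 3 ∨ k = 4 := by omega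
    · exact ((d (m := 1) (n := 0) Nat.prime_two c6).2 rfl).elim
    · exact ((d (m := 3) (n := 0) Nat.prime_two c6).2 rfl).elim
    · exact .inl (d (m := 1) (n := 1) (by norm_num) c6).1
    · refine .inr ⟨(d (m := 4) (n := 1) (by norm_num) c6).1, by omega, fun v hv e => ?_⟩
      have := Submodule.finrank_eq_zero.1 (show finrank (ZMod 3)
        (W ⊓ LinearMap.ker (ρ a - 1) : Submodule _ V) = 0 by omega)
      refine this.le ⟨hv, sub_eq_zero.2 (zpowers_le (H := fx ρ (Submodule.span (ZMod 3) {v})).2 (fun w hw => ?_) c1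
        v (Submodule.mem_span_singleton_self v))⟩
      obtain ⟨c, rfl⟩ := Submodule.mem_span_singleton.1 hw
      rw [map_smul, e]
  obtain ⟨a, c1, c2, c3, rfl | ⟨rfl, c4, -⟩⟩ := k _ a2 a1
  · exact c2 (h.not_thirteen c1 c3)
  let L := H3F.cm ρ W ⊓ P
  let _ : MulAction L {v : W // v ≠ 0} :=
    { smul := fun g v => ⟨⟨ρ g v, iW g g.2.1 _ v.1.2⟩, fun e =>
        act_ne (ρ := ρ) (g : G) (fun e => v.2 (Subtype.ext e)) (congrArg Subtype.val e)⟩
      one_smul := fun v => Subtype.ext (Subtype.ext (show ρ (1 : G) v = v by simp))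
      mul_smul := fun g k v => Subtype.ext (Subtype.ext (act_mul (g : G) k (v : V))) }
  have d1 := Nat.card_congr (MulAction.selfEquivOrbitsQuotientProd (G := L) (X := {v : W // v ≠ 0})
    fun v => eq_bot_iff.2 fun g hg => by_contra fun g1 => by
      obtain ⟨-, -, -, -, e | ⟨-, -, e⟩⟩ := k g g.2 fun e => g1 (Subtype.ext e)
      · omega
      · exact v.2 (Subtype.ext (e _ v.1.2 (congrArg (Subtype.val ∘ Subtype.val) hg))))
  have d2 : Nat.card {v : W // v ≠ 0} = 80 := by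
    classical
    have := Fintype.ofFinite W
    rw [Nat.card_eq_fintype_card, Fintype.card_subtype_compl, ← Nat.card_eq_fintype_card, card_sub, c4]
    simp
  obtain ⟨n, hn⟩ := IsPGroup.iff_card.1 (hP.to_le (inf_le_right (a := H3F.cm ρ W)))
  rw [d2, Nat.card_prod, hn] at d1
  have d3 : Nat.card L = 5 := by
    rcases n with _ | _ | n
    · exact (a1 (card_eq_one.1 hn ▸ a2 :)).elim
    · exact hn
    · rw [pow_add, pow_add] at d1
      have : 5 ^ 1 * 5 ^ 1 ∣ 80 := by rw [d1, mul_assoc]; exact (dvd_mul_left _ _).mul_left _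
      omega
  have d4 : b * ⁅t, b⁆ * b⁻¹ ∈ L := mem_inf.2 ⟨mul_mem (mul_mem b1 a2.1) (inv_mem b1),
    H2.conj_mem_of_le_normalizer hb (mem_zpowers b) a2.2⟩
  obtain ⟨m, hm⟩ := mem_powers_iff_mem_zpowers.2 (mem_zpowers_of_prime_card d3
    (g := ⟨_, a2⟩) (g' := ⟨_, d4⟩) fun e => a1 (congrArg Subtype.val e))
  replace hm : ⁅t, b⁆ ^ m = b * ⁅t, b⁆ * b⁻¹ := congrArg Subtype.val hm
  have d5 : ⁅t, b⁆ ^ (1 + m + m * m) = 1 := by
    rw [pow_add, pow_add, pow_one, pow_mul, hm, conj_pow, hm, show ⁅t, b⁆ * (b * ⁅t, b⁆ * b⁻¹) *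
      (b * (b * ⁅t, b⁆ * b⁻¹) * b⁻¹) = t * b ^ 3 * t⁻¹ * (b ^ 3)⁻¹ by
        simp [commutatorElement_def, pow_three, mul_assoc], h.b3]
    simp
  refine a1 (eq_one_of_pow (n := 5) ?_ d5 (d3 ▸ congrArg Subtype.val (pow_card_eq_one' (x := (⟨_, a2⟩ : L)))))
  refine ((Nat.Prime.coprime_iff_not_dvd hr).2 fun e => ?_).symm
  rw [← ZMod.natCast_eq_zero_iff] at e
  push_cast at e
  exact aux5 _ e

theorem isPGroup : IsPGroup 2 R := by
  have := h.norm
  have k := fun (p : ℕ) [Fact p.Prime] => H2.exists_invariant_sylowIn (A := zpowers b) (K := R)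
    le_normalizer_of_normal (h.toHyp.cop h.cop) (.inr inferInstance) p
  obtain ⟨T, h1, h2⟩ := k 2
  have h3 : (T.relIndex R).Coprime ((centralizer (zpowers b) ⊓ R).relIndex R) :=
    Nat.coprime_of_dvd fun p hp e1 e2 => by
      have := Fact.mk hp
      obtain ⟨P, h3, h4⟩ := k p
      refine h3.not_dvd_relIndex (e2.trans (relIndex_dvd_of_le_left _ (le_inf (fun c hc => ?_) h3.1)))
      have := mem_centralizer_singleton_iff.1 (h.le_cent hp (hp.five_le_of_ne_two_of_ne_three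
        (by rintro rfl; exact h1.not_dvd_relIndex e1) (by
          rintro rfl
          exact absurd (h.cop.symm.eq_one_of_dvd (e1.trans (relIndex_dvd_card _ _))) (by norm_num)))
        h3.2.1 h4 hc)
      rintro _ ⟨n, rfl⟩
      exact (Commute.zpow_right this n).symm
  refine h1.2.1.to_le (h.cm.trans (commutator_le.2 fun r hr k hk => ?_))
  obtain ⟨t, ht, c, hc, rfl⟩ := H1.exists_mul_eq_of_coprime_relIndex h1.1 inf_le_right h3 hr
  rw [show ⁅t * c, k⁆ = t * (c * k * c⁻¹) * t⁻¹ * k⁻¹ by simp [commutatorElement_def, mul_assoc],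
    ← hc.1 k hk, mul_inv_cancel_right, mul_assoc, mul_assoc, ← mul_assoc k]
  exact mul_mem ht (H2.conj_mem_of_le_normalizer h2 hk (inv_mem ht))

end Irr

end H3F
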